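import Mathlib
import Cfsg.Agent.Solvable.Glauberman
import Cfsg.Agent.Transfer.PGroupNormal
set_option linter.all false

-- part: H535/AHDefs
section
/-!
Basic notions for S4162 (solvable groups with distinct class sizes): rational groups,
`cent x` = order of the centralizer.
-/

set_option autoImplicit false

namespace Cfsg.Agent.AH

open Subgroup

/-- A rational group: every element is conjugate to its powers generating the same cyclic group. -/
def IsRat (G : Type*) [Group G] : Prop :=
  ∀ (x : G) (j : ℕ), j.Coprime (orderOf x) → IsConj x (x ^ j)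

/-- Distinct conjugacy classes have distinct sizes. -/
def IsAH (G : Type*) [Group G] : Prop :=
  Function.Injective fun C : ConjClasses G => Nat.card C.carrier

/-- The order of the centralizer. -/
noncomputable def cent {G : Type*} [Group G] (x : G) : ℕ :=
  Nat.card (Subgroup.centralizer ({x} : Set G))

variable {G : Type*} [Group G]

theorem ncard_class_mul_cent (x : G) :
    Nat.card (ConjClasses.mk x).carrier * cent x = Nat.card G := by
  classical
  have h1 : (ConjClasses.mk x).carrier = MulAction.orbit (ConjAct G) x := by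
    rw [ConjAct.orbit_eq_carrier_conjClasses]
  have h2 := MulAction.index_stabilizer (ConjAct G) x
  have h4 : (MulAction.stabilizer (ConjAct G) x).index =
      (Subgroup.centralizer ({x} : Set G)).index := by
    rw [Subgroup.centralizer_eq_comap_stabilizer]
    exact (Subgroup.index_comap_of_surjective _ (ConjAct.toConjAct (G := G)).surjective).symm
  have h5 := (Subgroup.centralizer ({x} : Set G)).index_mul_card
  rw [← h4, h2] at h5
  rw [h1]
  exact h5

theorem cent_conj_eq {x y : G} (h : IsConj x y) : cent x = cent y := by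
  obtain ⟨c, rfl⟩ := isConj_iff.mp h
  unfold cent
  refine Nat.card_congr ⟨fun z => ⟨c * z * c⁻¹, ?_⟩, fun z => ⟨c⁻¹ * z * c, ?_⟩, ?_, ?_⟩
  · have := z.2
    rw [Subgroup.mem_centralizer_singleton_iff] at this ⊢
    calc c * z * c⁻¹ * (c * x * c⁻¹) = c * (z * x) * c⁻¹ := by group
      _ = c * (x * z) * c⁻¹ := by rw [this]
      _ = _ := by group
  · have := z.2
    rw [Subgroup.mem_centralizer_singleton_iff] at this ⊢
    calc c⁻¹ * z * c * x = c⁻¹ * (z * (c * x * c⁻¹)) * c := by group
      _ = c⁻¹ * ((c * x * c⁻¹) * z) * c := by rw [this]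
      _ = _ := by group
  · intro z; ext; simp [mul_assoc]
  · intro z; ext; simp [mul_assoc]

variable [Finite G]

theorem cent_pos (x : G) : 0 < cent x := Nat.card_pos

omit [Finite G] in
theorem cent_dvd (x : G) : cent x ∣ Nat.card G := Subgroup.card_subgroup_dvd_card _

theorem isConj_of_cent_eq (h : IsAH G) {x y : G} (hxy : cent x = cent y) : IsConj x y := by
  have h1 := ncard_class_mul_cent x
  have h2 := ncard_class_mul_cent y
  rw [← hxy, ← h1] at h2
  have h3 := Nat.eq_of_mul_eq_mul_right (cent_pos x) h2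
  exact (ConjClasses.mk_eq_mk_iff_isConj.mp (h h3)).symm

omit [Finite G] in
theorem centralizer_pow_eq (x : G) (j : ℕ) (hj : j.Coprime (orderOf x)) :
    Subgroup.centralizer ({x ^ j} : Set G) = Subgroup.centralizer ({x} : Set G) := by
  apply le_antisymm
  · intro z hz
    rw [Subgroup.mem_centralizer_singleton_iff] at hz ⊢
    obtain ⟨m, hm⟩ := exists_pow_eq_self_of_coprime hj
    have : Commute z ((x ^ j) ^ m) := Commute.pow_right hz m
    rw [hm] at this
    exact this
  · intro z hz
    rw [Subgroup.mem_centralizer_singleton_iff] at hz ⊢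
    exact Commute.pow_right hz j

theorem IsAH.isRat (h : IsAH G) : IsRat G := by
  intro x j hj
  apply isConj_of_cent_eq h
  unfold cent
  rw [centralizer_pow_eq x j hj]

omit [Finite G] in
/-- Any surjective image of a rational finite group is rational. -/
theorem IsRat.of_surjective {H : Type*} [Group H] [Finite G] (h : IsRat G) (f : G →* H)
    (hf : Function.Surjective f) : IsRat H := by
  intro y j hj
  obtain ⟨x, rfl⟩ := hf y
  -- choose j' ≡ j mod orderOf (f x), coprime to orderOf x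
  have hd : orderOf (f x) ∣ orderOf x := orderOf_map_dvd f x
  have hpos : 0 < orderOf x := orderOf_pos x
  have : NeZero (orderOf x) := ⟨hpos.ne'⟩
  obtain ⟨u, hu⟩ := ZMod.unitsMap_surjective hd (ZMod.unitOfCoprime j hj)
  have hu' : ((u : ZMod (orderOf x)).val : ZMod (orderOf (f x))) = (j : ZMod (orderOf (f x))) := by
    have h1 := congrArg (fun v : (ZMod (orderOf (f x)))ˣ => (v : ZMod (orderOf (f x)))) hu
    simp only [ZMod.unitsMap_def, Units.coe_map, ZMod.coe_unitOfCoprime] at h1
    rw [← h1]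
    rw [ZMod.natCast_val]
    rfl
  have hc : Nat.Coprime (u : ZMod (orderOf x)).val (orderOf x) := ZMod.val_coe_unit_coprime u
  have h2 := (h x _ hc)
  have h3 : IsConj (f x) (f (x ^ (u : ZMod (orderOf x)).val)) := f.map_isConj h2
  rw [map_pow] at h3
  have h4 : f x ^ (u : ZMod (orderOf x)).val = f x ^ j := by
    rw [pow_eq_pow_iff_modEq]
    exact (ZMod.natCast_eq_natCast_iff _ _ _).mp hu'
  rwa [h4] at h3

theorem IsRat.quotient (h : IsRat G) (N : Subgroup G) [N.Normal] : IsRat (G ⧸ N) :=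
  h.of_surjective (QuotientGroup.mk' N) (QuotientGroup.mk'_surjective N)

theorem IsRat.of_equiv {H : Type*} [Group H] (h : IsRat G) (e : G ≃* H) : IsRat H :=
  h.of_surjective e.toMonoidHom e.surjective

theorem IsRat.inv (h : IsRat G) (x : G) : IsConj x x⁻¹ := by
  have h1 : (orderOf x - 1).Coprime (orderOf x) ∨ orderOf x = 1 := by
    have := orderOf_pos x
    rcases Nat.lt_or_ge 1 (orderOf x) with h | h
    · left
      have h2 : (orderOf x - 1) + 1 = orderOf x := by omega
      rw [← h2]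
      simp
    · right; omega
  rcases h1 with h1 | h1
  · have h2 := h x _ h1
    have h3 : x ^ (orderOf x - 1) = x⁻¹ := by
      have := orderOf_pos x
      rw [eq_inv_iff_mul_eq_one, ← pow_succ, Nat.sub_add_cancel this, pow_orderOf_eq_one]
    rwa [h3] at h2
  · rw [orderOf_eq_one_iff] at h1
    subst h1
    simp

end Cfsg.Agent.AH
end

-- part: H535/AHTrace
section
/-!
Rationality of traces on the fixed space of a subgroup (for S4162).
-/

set_option autoImplicit false

namespace Cfsg.Agent.AH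

open Subgroup

section Trace

variable {K : Type*} [Field K] {V : Type*} [AddCommGroup V] [Module K V]
variable {L : Type*} [Group L]

/-- The fixed space of a subgroup. -/
def fixSub (ρ : L →* Module.End K V) (X : Subgroup L) : Submodule K V where
  carrier := {v | ∀ x ∈ X, ρ x v = v}
  add_mem' := by
    intro a b ha hb x hx
    rw [map_add, ha x hx, hb x hx]
  zero_mem' := by
    intro x _
    simp
  smul_mem' := by
    intro c a ha x hx
    rw [map_smul, ha x hx]

theorem mem_fixSub (ρ : L →* Module.End K V) (X : Subgroup L) (v : V) :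
    v ∈ fixSub ρ X ↔ ∀ x ∈ X, ρ x v = v := Iff.rfl

theorem fixSub_stable (ρ : L →* Module.End K V) (X : Subgroup L) {y : L}
    (hy : y ∈ normalizer (X : Set L)) : ∀ v ∈ fixSub ρ X, ρ y v ∈ fixSub ρ X := by
  intro v hv x hx
  have h1 : y⁻¹ * x * y ∈ X := (Subgroup.mem_normalizer_iff''.mp hy x).mp hx
  have h2 := hv _ h1
  calc ρ x (ρ y v) = ρ (x * y) v := by rw [map_mul]; rfl
    _ = ρ (y * (y⁻¹ * x * y)) v := by congr 2; group
    _ = ρ y (ρ (y⁻¹ * x * y) v) := by rw [map_mul]; rfl
    _ = ρ y v := by rw [h2]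

/-- The operator induced on the fixed space by an element of the normalizer. -/
noncomputable def actFix (ρ : L →* Module.End K V) (X : Subgroup L) {y : L}
    (hy : y ∈ normalizer (X : Set L)) : Module.End K (fixSub ρ X) :=
  (ρ y).restrict (fixSub_stable ρ X hy)

@[simp] theorem actFix_apply (ρ : L →* Module.End K V) (X : Subgroup L) {y : L}
    (hy : y ∈ normalizer (X : Set L)) (v : fixSub ρ X) :
    ((actFix ρ X hy v : fixSub ρ X) : V) = ρ y v := rfl

variable [Finite L] [FiniteDimensional K V]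

theorem trace_actFix (ρ : L →* Module.End K V) (X : Subgroup L) {y : L}
    (hy : y ∈ normalizer (X : Set L)) (hX : (Nat.card X : K) ≠ 0) [Fintype X] :
    LinearMap.trace K _ (actFix ρ X hy) =
      (Nat.card X : K)⁻¹ * ∑ x : X, LinearMap.trace K V (ρ (y * (x : L))) := by
  classical
  set e : Module.End K V := (Nat.card X : K)⁻¹ • ∑ x : X, ρ (x : L) with he
  have happ : ∀ v, e v = (Nat.card X : K)⁻¹ • ∑ x : X, ρ (x : L) v := by
    intro v
    rw [he, LinearMap.smul_apply, LinearMap.sum_apply]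
  have hmem : ∀ v, e v ∈ fixSub ρ X := by
    intro v x hx
    rw [happ, map_smul, map_sum]
    congr 1
    refine Fintype.sum_equiv (Equiv.mulLeft (⟨x, hx⟩ : X)) _ _ ?_
    intro z
    change ρ x (ρ z v) = ρ (x * z) v
    rw [map_mul]; rfl
  have hfix : ∀ v ∈ fixSub ρ X, e v = v := by
    intro v hv
    rw [happ]
    have : ∑ x : X, ρ (x : L) v = (Nat.card X : K) • v := by
      rw [Finset.sum_congr rfl (fun (x : X) _ => hv (x : L) x.2)]
      rw [Finset.sum_const, Finset.card_univ, Nat.card_eq_fintype_card, Nat.cast_smul_eq_nsmul]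
    rw [this, smul_smul, inv_mul_cancel₀ hX, one_smul]
  set π : V →ₗ[K] fixSub ρ X := e.codRestrict (fixSub ρ X) hmem with hπ
  have h1 : actFix ρ X hy = π ∘ₗ ((ρ y) ∘ₗ (fixSub ρ X).subtype) := by
    ext v
    change ρ y v = e (ρ y v)
    rw [hfix _ (fixSub_stable ρ X hy v v.2)]
  have h2 : ((ρ y) ∘ₗ (fixSub ρ X).subtype) ∘ₗ π =
      (Nat.card X : K)⁻¹ • ∑ x : X, ρ (y * (x : L)) := by
    ext v
    change ρ y (e v) = _
    rw [happ, map_smul, map_sum, LinearMap.smul_apply, LinearMap.sum_apply]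
    congr 1
    refine Finset.sum_congr rfl fun x _ => ?_
    rw [map_mul]; rfl
  rw [h1, LinearMap.trace_comp_comm', h2, map_smul, map_sum, smul_eq_mul]

/-- Trace rationality on the fixed space of a subgroup. -/
theorem trace_actFix_pow (hL : IsRat L) (ρ : L →* Module.End K V) (X : Subgroup L) {y : L}
    (hy : y ∈ normalizer (X : Set L)) (hX : (Nat.card X : K) ≠ 0)
    (j : ℕ) (hj : j.Coprime (Nat.card L)) :
    LinearMap.trace K _ (actFix ρ X (pow_mem hy j)) =
      LinearMap.trace K _ (actFix ρ X hy) := by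
  classical
  have : Fintype X := Fintype.ofFinite X
  rw [trace_actFix ρ X _ hX, trace_actFix ρ X _ hX]
  congr 1
  have hpow : ∀ (x : L), x ∈ X → ∀ n : ℕ, (y ^ n)⁻¹ * (y * x) ^ n ∈ X := by
    intro x hx n
    induction n with
    | zero => simp [X.one_mem]
    | succ n ih =>
      have h1 : (y ^ (n + 1))⁻¹ * (y * x) ^ (n + 1) =
          (y⁻¹ * ((y ^ n)⁻¹ * (y * x) ^ n) * y) * x := by
        rw [pow_succ, pow_succ]; group
      rw [h1]
      exact X.mul_mem ((Subgroup.mem_normalizer_iff''.mp hy _).mp ih) hx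
  -- the bijection
  let f : X → X := fun x => ⟨(y ^ j)⁻¹ * (y * x) ^ j, hpow x x.2 j⟩
  have hf : Function.Injective f := by
    intro a b hab
    have h1 : (y ^ j)⁻¹ * (y * a) ^ j = (y ^ j)⁻¹ * (y * (b : L)) ^ j := congrArg Subtype.val hab
    have h2 := mul_left_cancel h1
    have h3 : (y * (a : L)) = y * b := by
      have := (powCoprime (hj.symm)).injective (a₁ := y * (a : L)) (a₂ := y * b) (by
        simpa [powCoprime] using h2)
      exact this
    exact Subtype.ext (mul_left_cancel h3)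
  have hfb : Function.Bijective f := Finite.injective_iff_bijective.mp hf
  symm
  refine Fintype.sum_bijective f hfb _ _ ?_
  intro x
  have h1 : y ^ j * ((f x : X) : L) = (y * (x : L)) ^ j := by
    change y ^ j * ((y ^ j)⁻¹ * (y * (x : L)) ^ j) = _
    group
  rw [h1]
  have hc : j.Coprime (orderOf (y * (x : L))) :=
    Nat.Coprime.coprime_dvd_right (orderOf_dvd_natCard _) hj
  obtain ⟨c, hc⟩ := isConj_iff.mp (hL (y * (x : L)) j hc)
  rw [← hc]
  have h0 : ρ (c * (y * (x : L)) * c⁻¹) = ρ c * ρ (y * (x : L)) * ρ c⁻¹ := by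
    rw [map_mul, map_mul ρ c]
  rw [h0]
  have h3 : ρ c * ρ (y * x) * ρ c⁻¹ = (ρ c ∘ₗ ρ (y * (x : L))) ∘ₗ ρ c⁻¹ := rfl
  rw [h3, LinearMap.trace_comp_comm']
  have h4 : ρ c⁻¹ ∘ₗ (ρ c ∘ₗ ρ (y * (x : L))) = ρ (y * (x : L)) := by
    change ρ c⁻¹ * (ρ c * ρ (y * x)) = _
    rw [← mul_assoc, ← map_mul]; simp
  rw [h4]

end Trace

end Cfsg.Agent.AH
end

-- part: H535/AHSmooth
section
/-!
`p ^ n - 1` is not of the form `2 ^ a * 3 ^ b` for a prime `p ≥ 5` and `n ≥ 3`.
-/

set_option autoImplicit false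

namespace Cfsg.Agent.AH

theorem odd_geom {p l : ℕ} (hp : p % 2 = 1) (hl : l % 2 = 1) :
    (∑ i ∈ Finset.range l, p ^ i) % 2 = 1 := by
  have h : (∑ i ∈ Finset.range l, p ^ i) ≡ ∑ i ∈ Finset.range l, 1 ^ i [MOD 2] := by
    apply Nat.ModEq.sum
    intro i _
    exact Nat.ModEq.pow i hp
  simp only [one_pow, Finset.sum_const, Finset.card_range, smul_eq_mul, mul_one] at h
  exact h.trans (show l ≡ 1 [MOD 2] from hl)

theorem geom_mod_three_one {p l : ℕ} (hp : p % 3 = 1) :
    (∑ i ∈ Finset.range l, p ^ i) ≡ l [MOD 3] := by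
  have h : (∑ i ∈ Finset.range l, p ^ i) ≡ ∑ i ∈ Finset.range l, 1 ^ i [MOD 3] := by
    apply Nat.ModEq.sum
    intro i _
    exact Nat.ModEq.pow i hp
  simpa using h

theorem geom_mod_three_two {p l : ℕ} (hp : p % 3 = 2) (hl : l % 2 = 1) :
    (∑ i ∈ Finset.range l, p ^ i) ≡ 1 [MOD 3] := by
  obtain ⟨k, rfl⟩ : ∃ k, l = 2 * k + 1 := ⟨l / 2, by omega⟩
  induction k with
  | zero => simp; rfl
  | succ k ih =>
    have h1 : 2 * (k + 1) + 1 = (2 * k + 1) + 1 + 1 := by ring
    rw [h1, Finset.sum_range_succ, Finset.sum_range_succ, add_assoc]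
    have h2 : p ^ (2 * k + 1) + p ^ (2 * k + 1 + 1) ≡ 0 [MOD 3] := by
      have : p ^ (2 * k + 1) + p ^ (2 * k + 1 + 1) = p ^ (2 * k + 1) * (1 + p) := by ring
      rw [this]
      have h3 : (1 + p) ≡ 0 [MOD 3] := by
        change (1 + p) % 3 = 0 % 3
        omega
      have := (Nat.ModEq.refl (p ^ (2 * k + 1)) (n := 3)).mul h3
      simpa using this
    exact (ih (by omega)).add h2

theorem pow_sub_one_ne_smooth {p n : ℕ} (hp : p.Prime) (hp5 : 5 ≤ p) (hn : 3 ≤ n) (a b : ℕ) :
    p ^ n - 1 ≠ 2 ^ a * 3 ^ b := by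
  intro h
  have hp2 : p % 2 = 1 := by
    rcases hp.eq_two_or_odd with h | h
    · omega
    · exact h
  have hp3 : p % 3 = 1 ∨ p % 3 = 2 := by
    have : p % 3 ≠ 0 := by
      intro h3
      have := (Nat.prime_dvd_prime_iff_eq Nat.prime_three hp).mp (Nat.dvd_of_mod_eq_zero h3)
      omega
    omega
  rcases Nat.eq_two_pow_or_exists_odd_prime_and_dvd n with ⟨k, hk⟩ | ⟨l, hl, hln, hodd⟩
  · -- 4 ∣ n
    have h4 : 4 ∣ n := by
      have hk2 : 2 ≤ k := by
        by_contra hlt
        have : k = 0 ∨ k = 1 := by omega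
        rcases this with rfl | rfl <;> simp at hk <;> omega
      rw [hk]
      exact pow_dvd_pow 2 hk2
    have h5 : p ^ 4 - 1 ∣ p ^ n - 1 := by
      obtain ⟨m, rfl⟩ := h4
      rw [pow_mul]
      simpa using Nat.sub_dvd_pow_sub_pow (p ^ 4) 1 m
    have h6 : p ^ 2 + 1 ∣ p ^ 4 - 1 := by
      refine ⟨p ^ 2 - 1, ?_⟩
      have : p ^ 4 = (p ^ 2) ^ 2 := by ring
      rw [this, ← Nat.sq_sub_sq (p ^ 2) 1]
    have h7 : p ^ 2 + 1 ∣ 2 ^ a * 3 ^ b := h ▸ (h6.trans h5)
    have h8 : Nat.Coprime (p ^ 2 + 1) (3 ^ b) := by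
      apply Nat.Coprime.pow_right
      rw [Nat.coprime_comm, Nat.Prime.coprime_iff_not_dvd Nat.prime_three]
      intro h9
      have h10 := Nat.mod_eq_zero_of_dvd h9
      rcases hp3 with h3 | h3 <;> simp [Nat.add_mod, Nat.pow_mod, h3] at h10
    have h9 : p ^ 2 + 1 ∣ 2 ^ a := Nat.Coprime.dvd_of_dvd_mul_right h8 h7
    obtain ⟨c, -, hc⟩ := (Nat.dvd_prime_pow Nat.prime_two).mp h9
    have h10 : (p ^ 2 + 1) % 4 = 2 := by
      have : p % 4 = 1 ∨ p % 4 = 3 := by omega
      rcases this with h | h <;> simp [Nat.add_mod, Nat.pow_mod, h]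
    rcases Nat.lt_or_ge c 2 with hlt | hge
    · have : c = 0 ∨ c = 1 := by omega
      rcases this with rfl | rfl
      · simp at hc; omega
      · have : 25 ≤ p ^ 2 := by nlinarith
        omega
    · obtain ⟨d, rfl⟩ := Nat.exists_eq_add_of_le hge
      rw [hc, pow_add] at h10
      omega
  · have hodd' : l % 2 = 1 := Nat.odd_iff.mp hodd
    set q := ∑ i ∈ Finset.range l, p ^ i with hq
    have hl3 : 3 ≤ l := by
      have := hl.two_le
      omega
    have hq1 : (p - 1) * q = p ^ l - 1 := by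
      have h1 := mul_geom_sum ((p : ℤ)) l
      have h2 : ((p - 1 : ℕ) : ℤ) = (p : ℤ) - 1 := by
        rw [Nat.cast_sub (by omega)]; simp
      have h3 : ((p ^ l - 1 : ℕ) : ℤ) = (p : ℤ) ^ l - 1 := by
        rw [Nat.cast_sub (Nat.one_le_pow _ _ (by omega))]; simp
      have h4 : (((p - 1) * q : ℕ) : ℤ) = ((p ^ l - 1 : ℕ) : ℤ) := by
        rw [h3, Nat.cast_mul, h2, hq]
        push_cast
        exact h1
      exact_mod_cast h4
    have hq2 : q ∣ p ^ n - 1 := by
      have h5 : p ^ l - 1 ∣ p ^ n - 1 := by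
        obtain ⟨m, rfl⟩ := hln
        rw [pow_mul]
        simpa using Nat.sub_dvd_pow_sub_pow (p ^ l) 1 m
      exact (Dvd.intro_left _ hq1).trans h5
    have hqbig : p < q := by
      have h1 : p ^ 0 + p ^ 1 + p ^ 2 ≤ q := by
        have h2 : ∑ i ∈ Finset.range 3, p ^ i ≤ q :=
          Finset.sum_le_sum_of_subset (Finset.range_subset_range.mpr hl3)
        simpa [Finset.sum_range_succ] using h2
      have h3 : 0 < p ^ 2 := by positivity
      simp only [pow_zero, pow_one] at h1
      omega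
    have hq3 : q ∣ 3 ^ b := by
      have h1 : q ∣ 2 ^ a * 3 ^ b := h ▸ hq2
      have h2 : Nat.Coprime q (2 ^ a) := by
        apply Nat.Coprime.pow_right
        rw [Nat.coprime_comm, Nat.Prime.coprime_iff_not_dvd Nat.prime_two]
        intro h3
        have h4 := odd_geom hp2 hodd'
        rw [← hq] at h4
        omega
      exact Nat.Coprime.dvd_of_dvd_mul_left h2 h1
    obtain ⟨c, -, hc⟩ := (Nat.dvd_prime_pow Nat.prime_three).mp hq3
    have hc0 : c ≠ 0 := by
      rintro rfl
      simp at hc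
      omega
    have h3q : q % 3 = 0 := by
      obtain ⟨d, rfl⟩ := Nat.exists_eq_succ_of_ne_zero hc0
      rw [hc, pow_succ]
      simp
    rcases hp3 with h3 | h3
    · have h4 : q ≡ l [MOD 3] := geom_mod_three_one h3
      have h5 : l % 3 = 0 := by
        rw [← h4]; exact h3q
      have h6 : l = 3 := ((Nat.prime_dvd_prime_iff_eq Nat.prime_three hl).mp
        (Nat.dvd_of_mod_eq_zero h5)).symm
      have h7 : q % 9 = 3 := by
        have h8 : q = p ^ 2 + p + 1 := by
          rw [hq, h6]; simp [Finset.sum_range_succ]; ring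
        have h9 : p % 9 = 1 ∨ p % 9 = 4 ∨ p % 9 = 7 := by omega
        rw [h8]
        rcases h9 with h | h | h <;> simp [Nat.add_mod, Nat.pow_mod, h]
      rcases Nat.lt_or_ge c 2 with hlt | hge
      · have : c = 1 := by omega
        subst this
        simp at hc
        omega
      · obtain ⟨d, rfl⟩ := Nat.exists_eq_add_of_le hge
        rw [hc, pow_add] at h7
        omega
    · have h4 : q ≡ 1 [MOD 3] := geom_mod_three_two h3 hodd'
      have h5 : q % 3 = 1 := h4
      omega

end Cfsg.Agent.AH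
end

-- part: H535/AHRegular
section
/-!
Regular linear groups with rational traces over `ZMod p`, `p ≥ 5` (for S4162):
only `p = 5`, dimension two and order 24 is possible.
-/

set_option autoImplicit false

namespace Cfsg.Agent.AH

open Subgroup

/-! ### Group theoretic preliminaries -/

theorem exists_notMem_finset {Q : Type*} [Finite Q] (s : Finset Q) (h : s.card < Nat.card Q) :
    ∃ x, x ∉ s := by
  classical
  have hfin : Fintype Q := Fintype.ofFinite Q
  by_contra hcon
  push Not at hcon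
  have : s = Finset.univ := Finset.eq_univ_iff_forall.mpr hcon
  rw [this, Finset.card_univ, Nat.card_eq_fintype_card] at h
  omega

/-- A group of order 16 of exponent dividing 4 has more than one involution. -/
theorem no_sixteen {Q : Type*} [Group Q] [Finite Q] (hQ : Nat.card Q = 16) (z : Q)
    (hz1 : z ≠ 1) (hz2 : z * z = 1)
    (hu : ∀ x : Q, x * x = 1 → x = 1 ∨ x = z) (h4 : ∀ x : Q, x ^ 4 = 1) : False := by
  classical
  have hsq : ∀ x : Q, x ≠ 1 → x ≠ z → x * x = z := by
    intro x h1 h2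
    have h3 : (x * x) * (x * x) = 1 := by
      rw [← h4 x]; simp only [pow_succ, pow_zero, one_mul, mul_assoc]
    rcases hu _ h3 with h | h
    · rcases hu x h with h | h
      · exact absurd h h1
      · exact absurd h h2
    · exact h
  have hzc : ∀ x : Q, z * x = x * z := by
    intro x
    by_cases h1 : x = 1
    · simp [h1]
    by_cases h2 : x = z
    · rw [h2]
    · rw [← hsq x h1 h2, mul_assoc]
  have hinv : ∀ x : Q, x ≠ 1 → x ≠ z → x⁻¹ = x * z := by
    intro x h1 h2
    rw [inv_eq_iff_mul_eq_one, ← mul_assoc, hsq x h1 h2, hz2]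
  have hac : ∀ a b : Q, a ≠ 1 → a ≠ z → b ≠ 1 → b ≠ z → b ≠ a → b ≠ a * z →
      a * b = b * a * z ∧ a * b ≠ 1 ∧ a * b ≠ z := by
    intro a b a1 a2 b1 b2 hba hbaz
    have n1 : a * b ≠ 1 := by
      intro h
      have : b = a⁻¹ := (inv_eq_of_mul_eq_one_right h).symm
      rw [hinv a a1 a2] at this
      exact hbaz this
    have n2 : a * b ≠ z := by
      intro h
      have : b = a⁻¹ * z := by rw [← h]; group
      rw [hinv a a1 a2, mul_assoc, hz2, mul_one] at this
      exact hba this
    refine ⟨?_, n1, n2⟩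
    have h1 := hsq _ n1 n2
    have h2 : b * a = a⁻¹ * z * b⁻¹ := by rw [← h1]; group
    rw [hinv a a1 a2, hinv b b1 b2] at h2
    rw [h2]
    calc a * b = a * (z * z) * b * (z * z) := by rw [hz2]; group
      _ = a * z * z * (b * z) * z := by group
  obtain ⟨a, ha⟩ := exists_notMem_finset ({1, z} : Finset Q)
    (lt_of_le_of_lt Finset.card_le_two (by omega))
  obtain ⟨b, hb⟩ := exists_notMem_finset ({1, z, a, a * z} : Finset Q)
    (lt_of_le_of_lt Finset.card_le_four (by omega))
  have hcard : ({1, z, a, a * z, b, b * z, a * b, a * b * z} : Finset Q).card ≤ 8 := by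
    refine (Finset.card_insert_le _ _).trans ?_
    refine (Nat.add_le_add_right (Finset.card_insert_le _ _) 1).trans ?_
    have : ({a, a * z, b, b * z, a * b, a * b * z} : Finset Q).card ≤ 6 := Finset.card_le_six
    omega
  obtain ⟨c, hc⟩ := exists_notMem_finset ({1, z, a, a * z, b, b * z, a * b, a * b * z} : Finset Q)
    (lt_of_le_of_lt hcard (by omega))
  simp only [Finset.mem_insert, Finset.mem_singleton, not_or] at ha hb hc
  obtain ⟨c1, c2, c3, c4, c5, c6, c7, c8⟩ := hc
  obtain ⟨b1, b2, b3, b4⟩ := hb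
  obtain ⟨a1, a2⟩ := ha
  obtain ⟨e1, n1, n2⟩ := hac a b a1 a2 b1 b2 b3 b4
  obtain ⟨e2, -, -⟩ := hac a c a1 a2 c1 c2 c3 c4
  obtain ⟨e3, -, -⟩ := hac b c b1 b2 c1 c2 c5 c6
  obtain ⟨e4, -, -⟩ := hac (a * b) c n1 n2 c1 c2 c7 c8
  have e5 : a * b * c = c * (a * b) := by
    calc a * b * c = a * (b * c) := by group
      _ = (a * c) * (b * z) := by rw [e3]; group
      _ = c * a * (z * b) * z := by rw [e2]; group
      _ = c * a * b * (z * z) := by rw [hzc b]; group
      _ = c * (a * b) := by rw [hz2]; group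
  rw [e5] at e4
  exact hz1 (mul_eq_left.mp e4.symm)

/-- In a group of order 24 with a unique involution and without elements of order 12
the Sylow 3-subgroups are in the centre of their normalizers. -/
theorem normalizer_le_centralizer_of_24 {M : Type*} [Group M] [Finite M]
    (hM : Nat.card M = 24) (z : M) (hz1 : z ≠ 1) (hz2 : z * z = 1)
    (hu : ∀ x : M, x * x = 1 → x = 1 ∨ x = z) (h12 : ∀ x : M, orderOf x ≠ 12)
    (R : Sylow 3 M) :
    normalizer (R : Set M) ≤ centralizer (R : Set M) := by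
  have hR : Nat.card R = 3 := by
    rw [R.card_eq_multiplicity, hM]
    have : (24 : ℕ) = 3 ^ 1 * 8 := by norm_num
    rw [this, Nat.factorization_mul (by norm_num) (by norm_num),
      Nat.Prime.factorization_pow Nat.prime_three]
    have h8 : (8 : ℕ) = 2 ^ 3 := by norm_num
    rw [h8, Nat.Prime.factorization_pow Nat.prime_two]
    simp
  have hcyc : IsCyclic R := isCyclic_of_prime_card hR
  have hzc : ∀ x : M, z * x = x * z := by
    intro x
    have h1 : (x * z * x⁻¹) * (x * z * x⁻¹) = 1 := by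
      calc (x * z * x⁻¹) * (x * z * x⁻¹) = x * (z * z) * x⁻¹ := by group
        _ = 1 := by rw [hz2]; group
    rcases hu _ h1 with h | h
    · exfalso
      apply hz1
      rw [mul_inv_eq_one] at h
      exact mul_eq_left.mp h
    · rw [mul_inv_eq_iff_eq_mul] at h
      exact h.symm
  set N := normalizer (R : Set M) with hN
  set C := centralizer (R : Set M) with hC
  have hCN : C ≤ N := centralizer_le_normalizer _
  -- number of Sylow subgroups
  have hcount : Nat.card (Sylow 3 M) = N.index := R.card_eq_index_normalizer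
  have hmod : Nat.card (Sylow 3 M) ≡ 1 [MOD 3] := card_sylow_modEq_one 3 M
  have hRN : (R : Subgroup M) ≤ N := R.le_normalizer
  have hRC : (R : Subgroup M) ≤ C := by
    rw [hC]
    have : IsMulCommutative (R : Subgroup M) := by infer_instance
    exact le_centralizer (R : Subgroup M)
  have h3C : 3 ∣ Nat.card C := by
    rw [← hR]; exact card_dvd_of_le hRC
  have h2C : 2 ∣ Nat.card C := by
    have hzC : z ∈ C := by
      rw [hC, mem_centralizer_iff]
      intro x _
      exact (hzc x).symm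
    have h1 : orderOf (⟨z, hzC⟩ : C) = 2 := by
      rw [orderOf_eq_iff (by norm_num)]
      refine ⟨?_, ?_⟩
      · apply Subtype.ext
        simp [pow_two, hz2]
      · intro m hm hm0
        have : m = 1 := by omega
        subst this
        simpa [Subtype.ext_iff] using hz1
    rw [← h1]
    exact orderOf_dvd_natCard _
  have h6C : 6 ∣ Nat.card C := by omega
  have hcardN : N.index * Nat.card N = 24 := by rw [N.index_mul_card, hM]
  -- index of C in N at most two
  have hrel : C.relIndex N ∣ 2 := by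
    have key := card_dvd_of_injective _ (QuotientGroup.kerLift_injective
      (R : Subgroup M).normalizerMonoidHom)
    rw [normalizerMonoidHom_ker, ← index, ← relIndex] at key
    rw [IsCyclic.card_mulAut, hR, Nat.totient_prime Nat.prime_three] at key
    exact key
  have hrelmul : C.relIndex N * Nat.card C = Nat.card N := by
    rw [relIndex, ← Nat.card_congr (subgroupOfEquivOfLe hCN).toEquiv]
    exact index_mul_card _
  have h12C : ¬ 12 ∣ Nat.card C := by
    intro h
    have h4 : 2 ^ 2 ∣ Nat.card C := (by norm_num : (2:ℕ) ^ 2 ∣ 12).trans h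
    obtain ⟨Q, hQ⟩ := Sylow.exists_subgroup_card_pow_prime 2 h4
    -- an element of order 4 in Q
    obtain ⟨f, hf⟩ : ∃ f : Q, ((f : C) : M) ≠ 1 ∧ ((f : C) : M) ≠ z := by
      by_contra hcon
      push Not at hcon
      have hinj : Function.Injective (fun f : Q => ((f : C) : M)) := by
        intro a b hab
        exact Subtype.ext (Subtype.ext hab)
      have h5 : Set.range (fun f : Q => ((f : C) : M)) ⊆ {1, z} := by
        rintro _ ⟨f, rfl⟩
        by_cases h6 : ((f : C) : M) = 1
        · simp [h6]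
        · simp [hcon f h6]
      have h6 := Set.ncard_le_ncard h5 (Set.toFinite _)
      rw [← Nat.card_coe_set_eq, Nat.card_range_of_injective hinj, hQ] at h6
      have h7 : ({1, z} : Set M).ncard ≤ 2 := Set.ncard_insert_le _ _ |>.trans (by simp)
      omega
    have hf4 : ((f : C) : M) ^ 4 = 1 := by
      have h5 : f ^ 4 = 1 := by
        have : (4 : ℕ) = Nat.card Q := by rw [hQ]; norm_num
        rw [this]; exact pow_card_eq_one'
      have h6 := congrArg (fun x : Q => ((x : C) : M)) h5
      simpa using h6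
    have hford : orderOf ((f : C) : M) = 4 := by
      have h5 : orderOf ((f : C) : M) = 2 ^ (1 + 1) := by
        apply orderOf_eq_prime_pow
        · intro h6
          rcases hu ((f : C) : M) (by rw [← pow_two]; simpa using h6) with h7 | h7
          · exact hf.1 h7
          · exact hf.2 h7
        · simpa using hf4
      simpa using h5
    obtain ⟨r, hr⟩ := IsCyclic.exists_generator (α := R)
    have hrord : orderOf (r : M) = 3 := by
      rw [Subgroup.orderOf_coe]
      exact (orderOf_eq_card_of_forall_mem_zpowers hr).trans hR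
    have hcomm : Commute ((f : C) : M) (r : M) := by
      have h5 : ((f : C) : M) ∈ centralizer (R : Set M) := (f : C).2
      rw [mem_centralizer_iff] at h5
      exact (h5 r r.2).symm
    have h5 := hcomm.orderOf_mul_eq_mul_orderOf_of_coprime (by rw [hford, hrord]; norm_num)
    rw [hford, hrord] at h5
    exact h12 _ h5
  have h24 : Nat.card N ∣ 24 := Dvd.intro_left _ hcardN
  -- conclude by showing the relative index is one
  apply relIndex_eq_one.mp
  rcases (Nat.dvd_prime Nat.prime_two).mp hrel with h | h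
  · exact h
  · exfalso
    rw [h] at hrelmul
    obtain ⟨k, hk⟩ := h6C
    have hk1 : Nat.card N = 12 * k := by rw [← hrelmul, hk]; ring
    have hkpos : 0 < k := by
      rcases Nat.eq_zero_or_pos k with h0 | h0
      · rw [h0] at hk
        have := Nat.card_pos (α := C)
        omega
      · exact h0
    have hk2 : k ∣ 2 := by
      have : 12 * k ∣ 12 * 2 := by rw [← hk1]; exact h24
      exact Nat.dvd_of_mul_dvd_mul_left (by norm_num) this
    rcases (Nat.dvd_prime Nat.prime_two).mp hk2 with rfl | rfl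
    · have h5 : N.index = 2 := by
        rw [hk1] at hcardN; omega
      rw [hcount, h5] at hmod
      exact absurd hmod (by decide)
    · apply h12C
      rw [hk]

end Cfsg.Agent.AH
end

-- part: H535/AHRegular2
section
/-!
Regular linear groups with rational traces over `ZMod p`, `p ≥ 5` (for S4162), linear algebra part.
-/

set_option autoImplicit false
set_option linter.unusedSectionVars false

namespace Cfsg.Agent.AH

open Subgroup Module

/-- Quadratic relation for an endomorphism of a plane. -/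
theorem quad_of_finrank_two {K : Type*} [Field K] {W : Type*} [AddCommGroup W] [Module K W]
    (hW : finrank K W = 2) (T : Module.End K W) :
    ∃ d : K, T * T = (LinearMap.trace K W T) • T - d • (1 : Module.End K W) := by
  have hfin : FiniteDimensional K W := FiniteDimensional.of_finrank_pos (by omega)
  let b : Basis (Fin 2) K W := finBasisOfFinrankEq K W hW
  refine ⟨(LinearMap.toMatrix b b T).det, ?_⟩
  apply (LinearMap.toMatrix b b).injective
  rw [LinearMap.trace_eq_matrix_trace K b T, map_sub, map_smul, map_smul, LinearMap.toMatrix_mul,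
    LinearMap.toMatrix_one]
  set A := LinearMap.toMatrix b b T
  ext i j
  fin_cases i <;> fin_cases j <;>
    simp [Matrix.mul_apply, Matrix.trace, Matrix.det_fin_two, Fin.sum_univ_two] <;> ring

variable {p : ℕ} [hp : Fact p.Prime] {W : Type*} [AddCommGroup W] [Module (ZMod p) W] [Finite W]
variable {M : Type*} [Group M] [Finite M]

/-- A regular representation on nonzero vectors with rational traces. -/
structure RegRep (σ : M →* Module.End (ZMod p) W) : Prop where
  semi : ∀ (m : M) (w : W), w ≠ 0 → σ m w = w → m = 1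
  trans : ∀ w w' : W, w ≠ 0 → w' ≠ 0 → ∃ m, σ m w = w'
  tr : ∀ (m : M) (j : ℕ), j.Coprime (orderOf m) →
    LinearMap.trace (ZMod p) W (σ (m ^ j)) = LinearMap.trace (ZMod p) W (σ m)

namespace RegRep

variable {σ : M →* Module.End (ZMod p) W} (h : RegRep σ)

include h

theorem app_ne_zero (m : M) {w : W} (hw : w ≠ 0) : σ m w ≠ 0 := by
  intro h0
  apply hw
  have : σ m⁻¹ (σ m w) = w := by
    change (σ m⁻¹ * σ m) w = w
    rw [← map_mul]; simp
  rw [← this, h0, map_zero]

theorem card_add_one [Nontrivial W] : Nat.card M + 1 = Nat.card W := by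
  obtain ⟨w₀, hw₀⟩ := exists_ne (0 : W)
  have h1 : Nat.card M = Nat.card {w : W // w ≠ 0} := by
    refine Nat.card_eq_of_bijective (fun m => (⟨σ m w₀, h.app_ne_zero m hw₀⟩ : {w : W // w ≠ 0}))
      ⟨?_, ?_⟩
    · intro a b hab
      have h2 : σ a w₀ = σ b w₀ := congrArg Subtype.val hab
      have h3 : σ (b⁻¹ * a) w₀ = w₀ := by
        rw [map_mul]
        change σ b⁻¹ (σ a w₀) = w₀
        rw [h2]
        change (σ b⁻¹ * σ b) w₀ = w₀
        rw [← map_mul]; simp
      have h4 := h.semi _ w₀ hw₀ h3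
      rw [inv_mul_eq_one] at h4
      exact h4.symm
    · rintro ⟨w, hw⟩
      obtain ⟨m, hm⟩ := h.trans w₀ w hw₀ hw
      exact ⟨m, Subtype.ext hm⟩
  rw [h1]
  classical
  have : Fintype W := Fintype.ofFinite W
  rw [Nat.card_eq_fintype_card, Nat.card_eq_fintype_card]
  have h2 := Fintype.card_subtype_compl (fun w : W => w = 0)
  simp only [Fintype.card_subtype_eq] at h2
  have h3 : 0 < Fintype.card W := Fintype.card_pos
  have h4 : Fintype.card {w : W // w ≠ 0} = Fintype.card W - 1 := by
    rw [← h2]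
  omega

theorem invol (m : M) (h1 : m ≠ 1) (h2 : m * m = 1) : σ m = -1 := by
  ext w
  by_contra hne
  apply h1
  refine h.semi m (σ m w + w) ?_ ?_
  · intro h0
    apply hne
    change σ m w = -w
    exact eq_neg_of_add_eq_zero_left h0
  · rw [map_add]
    have : σ m (σ m w) = w := by
      change (σ m * σ m) w = w
      rw [← map_mul, h2, map_one]; rfl
    rw [this, add_comm]

theorem order_three (m : M) (h1 : m ≠ 1) (h2 : m ^ 3 = 1) : σ m ^ 2 + σ m + 1 = 0 := by
  ext w
  by_contra hne
  apply h1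
  refine h.semi m ((σ m ^ 2 + σ m + 1 : Module.End (ZMod p) W) w) hne ?_
  have h3 : σ m * (σ m ^ 2 + σ m + 1) = σ m ^ 2 + σ m + 1 := by
    rw [mul_add, mul_add, ← pow_succ', ← map_pow σ m 3, h2, map_one, mul_one, ← pow_two]
    abel
  change (σ m * (σ m ^ 2 + σ m + 1) : Module.End (ZMod p) W) w = _
  rw [h3]

theorem injective [Nontrivial W] : ∀ m : M, σ m = 1 → m = 1 := by
  intro m hm
  obtain ⟨w₀, hw₀⟩ := exists_ne (0 : W)
  exact h.semi m w₀ hw₀ (by rw [hm]; rfl)

omit h in
theorem trace_smul_one (hW : finrank (ZMod p) W = 2) (c : ZMod p) :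
    LinearMap.trace (ZMod p) W (c • (1 : Module.End (ZMod p) W)) = c * 2 := by
  rw [map_smul, LinearMap.trace_one, hW]
  simp

omit h in
theorem smul_one_inj [Nontrivial W] {a b : ZMod p}
    (hab : a • (1 : Module.End (ZMod p) W) = b • (1 : Module.End (ZMod p) W)) : a = b := by
  obtain ⟨w₀, hw₀⟩ := exists_ne (0 : W)
  have h1 := LinearMap.congr_fun hab w₀
  simp only [LinearMap.smul_apply, Module.End.one_apply] at h1
  exact smul_left_injective _ hw₀ h1

omit h in
theorem two_ne (hp5 : 5 ≤ p) : (2 : ZMod p) ≠ 0 := by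
  intro h2
  have h3 : ((2 : ℕ) : ZMod p) = 0 := by exact_mod_cast h2
  rw [ZMod.natCast_eq_zero_iff] at h3
  have := Nat.le_of_dvd (by norm_num) h3
  omega

omit h in
theorem three_ne (hp5 : 5 ≤ p) : (3 : ZMod p) ≠ 0 := by
  intro h2
  have h3 : ((3 : ℕ) : ZMod p) = 0 := by exact_mod_cast h2
  rw [ZMod.natCast_eq_zero_iff] at h3
  have := Nat.le_of_dvd (by norm_num) h3
  omega

variable [Nontrivial W] (hW : finrank (ZMod p) W = 2) (hp5 : 5 ≤ p)
include hW hp5

theorem no_eight (m : M) : orderOf m ≠ 8 := by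
  intro ho
  have h8 : m ^ 8 = 1 := by rw [← ho]; exact pow_orderOf_eq_one m
  have h4 : m ^ 4 ≠ 1 := by
    intro h4
    have := orderOf_dvd_of_pow_eq_one h4
    rw [ho] at this
    omega
  have e4 : σ m ^ 4 = -1 := by
    rw [← map_pow]
    exact h.invol _ h4 (by rw [← pow_add]; exact h8)
  have t5 := h.tr m 5 (by rw [ho]; norm_num)
  have e5 : σ (m ^ 5) = - σ m := by
    rw [map_pow, pow_succ, e4, neg_one_mul]
  rw [e5, map_neg] at t5
  have t0 : LinearMap.trace (ZMod p) W (σ m) = 0 := by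
    have : (2 : ZMod p) * LinearMap.trace (ZMod p) W (σ m) = 0 := by linear_combination -t5
    exact (mul_eq_zero.mp this).resolve_left (two_ne hp5)
  obtain ⟨d, hd⟩ := quad_of_finrank_two hW (σ m)
  rw [t0, zero_smul, zero_sub, ← neg_smul] at hd
  have hd2 : d * d = -1 := by
    apply smul_one_inj (W := W)
    have : σ m ^ 4 = (σ m * σ m) * (σ m * σ m) := by
      simp only [pow_succ, pow_zero, one_mul, mul_assoc]
    rw [this, hd, smul_mul_smul_comm, mul_one] at e4
    rw [neg_smul, one_smul, ← e4]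
    congr 1; ring
  have t3 := h.tr (m ^ 2) 3 (by
    apply Nat.Coprime.coprime_dvd_right (orderOf_pow_dvd 2)
    rw [ho]; norm_num)
  have e2 : σ (m ^ 2) = (-d) • (1 : Module.End (ZMod p) W) := by
    rw [map_pow, pow_two, hd]
  have e6 : σ ((m ^ 2) ^ 3) = ((-d) ^ 3) • (1 : Module.End (ZMod p) W) := by
    rw [map_pow, e2, smul_pow, one_pow]
  rw [e2, e6, trace_smul_one hW, trace_smul_one hW] at t3
  have t4 := mul_right_cancel₀ (two_ne hp5) t3
  have h5 : (2 : ZMod p) * d = 0 := by linear_combination t4 + d * hd2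
  have h6 : d = 0 := (mul_eq_zero.mp h5).resolve_left (two_ne hp5)
  rw [h6] at hd2
  have : (1 : ZMod p) = 0 := by linear_combination hd2
  exact one_ne_zero this

theorem no_nine (m : M) : orderOf m ≠ 9 := by
  intro ho
  have h9 : m ^ 9 = 1 := by rw [← ho]; exact pow_orderOf_eq_one m
  have h3 : m ^ 3 ≠ 1 := by
    intro h4
    have := orderOf_dvd_of_pow_eq_one h4
    rw [ho] at this
    omega
  have e3 := h.order_three (m ^ 3) h3 (by rw [← pow_mul]; exact h9)
  have e4 : σ (m ^ 7) + σ (m ^ 4) + σ m = 0 := by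
    have h1 : σ (m ^ 7) = σ (m ^ 3) ^ 2 * σ m := by
      rw [← map_pow, ← map_mul]; congr 1; rw [← pow_mul, ← pow_succ]
    have h2 : σ (m ^ 4) = σ (m ^ 3) * σ m := by
      rw [← map_mul, ← pow_succ]
    rw [h1, h2]
    calc σ (m ^ 3) ^ 2 * σ m + σ (m ^ 3) * σ m + σ m
        = (σ (m ^ 3) ^ 2 + σ (m ^ 3) + 1) * σ m := by rw [add_mul, add_mul, one_mul]
      _ = 0 := by rw [e3, zero_mul]
  have t7 := h.tr m 7 (by rw [ho]; norm_num)
  have t4 := h.tr m 4 (by rw [ho]; norm_num)
  have t2 := h.tr m 2 (by rw [ho]; norm_num)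
  have t := congrArg (LinearMap.trace (ZMod p) W) e4
  rw [map_add, map_add, t7, t4, map_zero] at t
  have t0 : LinearMap.trace (ZMod p) W (σ m) = 0 := by
    have : (3 : ZMod p) * LinearMap.trace (ZMod p) W (σ m) = 0 := by linear_combination t
    exact (mul_eq_zero.mp this).resolve_left (three_ne hp5)
  obtain ⟨d, hd⟩ := quad_of_finrank_two hW (σ m)
  rw [t0, zero_smul, zero_sub, ← neg_smul] at hd
  have e2 : σ (m ^ 2) = (-d) • (1 : Module.End (ZMod p) W) := by
    rw [map_pow, pow_two, hd]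
  rw [e2, trace_smul_one hW, t0] at t2
  have h5 : -d = 0 := (mul_eq_zero.mp t2).resolve_right (two_ne hp5)
  rw [h5, zero_smul] at e2
  obtain ⟨w₀, hw₀⟩ := exists_ne (0 : W)
  apply h.app_ne_zero (m ^ 2) hw₀
  rw [e2]; rfl

theorem no_twelve (m : M) : orderOf m ≠ 12 := by
  intro ho
  have h12 : m ^ 12 = 1 := by rw [← ho]; exact pow_orderOf_eq_one m
  have h6 : m ^ 6 ≠ 1 := by
    intro h4
    have := orderOf_dvd_of_pow_eq_one h4
    rw [ho] at this
    omega
  have h4 : m ^ 4 ≠ 1 := by
    intro h4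
    have := orderOf_dvd_of_pow_eq_one h4
    rw [ho] at this
    omega
  have e6 : σ m ^ 6 = -1 := by
    rw [← map_pow]
    exact h.invol _ h6 (by rw [← pow_add]; exact h12)
  have e4 := h.order_three (m ^ 4) h4 (by rw [← pow_mul]; exact h12)
  have t7 := h.tr m 7 (by rw [ho]; norm_num)
  have e7 : σ (m ^ 7) = - σ m := by
    rw [map_pow, pow_succ, e6, neg_one_mul]
  rw [e7, map_neg] at t7
  have t0 : LinearMap.trace (ZMod p) W (σ m) = 0 := by
    have : (2 : ZMod p) * LinearMap.trace (ZMod p) W (σ m) = 0 := by linear_combination -t7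
    exact (mul_eq_zero.mp this).resolve_left (two_ne hp5)
  obtain ⟨d, hd⟩ := quad_of_finrank_two hW (σ m)
  rw [t0, zero_smul, zero_sub, ← neg_smul] at hd
  have e2 : σ (m ^ 2) = (-d) • (1 : Module.End (ZMod p) W) := by
    rw [map_pow, pow_two, hd]
  have hd3 : d ^ 3 = 1 := by
    apply smul_one_inj (W := W)
    have h1 : σ m ^ 6 = σ (m ^ 2) ^ 3 := by rw [map_pow, ← pow_mul]
    rw [h1, e2, smul_pow, one_pow] at e6
    have h2 : d ^ 3 = - ((-d) ^ 3) := by ring
    rw [h2, neg_smul, e6, neg_neg, one_smul]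
  have hd4 : d ^ 4 + d ^ 2 + 1 = 0 := by
    apply smul_one_inj (W := W)
    have h1 : σ (m ^ 4) = σ (m ^ 2) ^ 2 := by rw [← map_pow, ← pow_mul]
    rw [h1, e2, smul_pow, one_pow, smul_pow, one_pow] at e4
    rw [zero_smul, ← e4, add_smul, add_smul, one_smul]
    congr 2
    · congr 1; ring
    · congr 1; ring
  have t5 := h.tr (m ^ 2) 5 (by
    have h1 : orderOf (m ^ 2) = 6 := by
      rw [orderOf_pow, ho]; rfl
    rw [h1]; norm_num)
  have e10 : σ ((m ^ 2) ^ 5) = ((-d) ^ 5) • (1 : Module.End (ZMod p) W) := by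
    rw [map_pow, e2, smul_pow, one_pow]
  rw [e2, e10, trace_smul_one hW, trace_smul_one hW] at t5
  have t6 := mul_right_cancel₀ (two_ne hp5) t5
  -- -d^5 = -d
  have h7 : d ^ 2 = d := by linear_combination -t6 - d ^ 2 * hd3
  have h8 : (3 : ZMod p) = 0 := by
    have h9 : d = 1 := by
      have : d ^ 3 = d := by
        calc d ^ 3 = d ^ 2 * d := by ring
          _ = d := by rw [h7, ← pow_two, h7]
      rw [← this]; exact hd3
    rw [h9] at hd4
    linear_combination hd4
  exact three_ne hp5 h8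

end RegRep

end Cfsg.Agent.AH
end

-- part: H535/AHRegular3
section
/-!
Regular linear groups with rational traces over `ZMod p`, `p ≥ 5` (for S4162): the order is 24.
-/

set_option autoImplicit false
set_option linter.unusedSectionVars false

namespace Cfsg.Agent.AH

open Subgroup Module

theorem smooth_three {n : ℕ} (hn : n ≠ 0) (h : ∀ q : ℕ, q.Prime → q ∣ n → q ≤ 3) :
    ∃ a b : ℕ, n = 2 ^ a * 3 ^ b := by
  refine ⟨n.factorization 2, (ordCompl[2] n).factorization 3, ?_⟩
  have h1 : ordProj[2] n * ordCompl[2] n = n := Nat.ordProj_mul_ordCompl_eq_self n 2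
  set m := ordCompl[2] n with hm
  have h2 : ordProj[3] m * ordCompl[3] m = m := Nat.ordProj_mul_ordCompl_eq_self m 3
  have hm0 : m ≠ 0 := (Nat.ordCompl_pos 2 hn).ne'
  have h3 : ordCompl[3] m = 1 := by
    by_contra hne
    obtain ⟨q, hq, hqd⟩ := Nat.exists_prime_and_dvd hne
    have h4 : q ∣ m := hqd.trans (Nat.ordCompl_dvd m 3)
    have h5 : q ∣ n := h4.trans (Nat.ordCompl_dvd n 2)
    have h6 := h q hq h5
    have h7 := hq.two_le
    have h8 : q = 2 ∨ q = 3 := by omega
    rcases h8 with rfl | rfl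
    · exact Nat.not_dvd_ordCompl Nat.prime_two hn h4
    · exact Nat.not_dvd_ordCompl Nat.prime_three hm0 hqd
  rw [h3, mul_one] at h2
  rw [h2, h1]

variable {p : ℕ} [hp : Fact p.Prime] {W : Type*} [AddCommGroup W] [Module (ZMod p) W] [Finite W]
variable {M : Type*} [Group M] [Finite M]

namespace RegRep

variable {σ : M →* Module.End (ZMod p) W} (h : RegRep σ)

include h

theorem finrank_ne_one [Nontrivial W] (hp5 : 5 ≤ p) : finrank (ZMod p) W ≠ 1 := by
  intro h1
  obtain ⟨w₀, hw₀⟩ := exists_ne (0 : W)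
  have h2 := (finrank_eq_one_iff_of_nonzero' w₀ hw₀).mp h1
  have h2w : (2 : ZMod p) • w₀ ≠ 0 := smul_ne_zero (two_ne hp5) hw₀
  obtain ⟨m, hm⟩ := h.trans w₀ _ hw₀ h2w
  have hs : σ m = (2 : ZMod p) • (1 : Module.End (ZMod p) W) := by
    ext w
    obtain ⟨c, rfl⟩ := h2 w
    rw [map_smul, hm, LinearMap.smul_apply, Module.End.one_apply, smul_comm]
  have hs' : σ m⁻¹ = (2 : ZMod p)⁻¹ • (1 : Module.End (ZMod p) W) := by
    have h3 : σ m⁻¹ * σ m = 1 := by rw [← map_mul]; simp
    rw [hs, mul_smul_comm, mul_one] at h3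
    rw [← h3, smul_smul, inv_mul_cancel₀ (two_ne hp5), one_smul]
  have hinv : m ^ (orderOf m - 1) = m⁻¹ := by
    have := orderOf_pos m
    rw [eq_inv_iff_mul_eq_one, ← pow_succ, Nat.sub_add_cancel this, pow_orderOf_eq_one]
  have hcop : (orderOf m - 1).Coprime (orderOf m) := by
    have := orderOf_pos m
    rcases Nat.lt_or_ge 1 (orderOf m) with h4 | h4
    · have h5 : (orderOf m - 1) + 1 = orderOf m := by omega
      rw [← h5]
      simp
    · exfalso
      have h5 : orderOf m = 1 := by omega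
      rw [orderOf_eq_one_iff] at h5
      rw [h5, map_one, Module.End.one_apply] at hm
      have h6 : (1 : ZMod p) • w₀ = (2 : ZMod p) • w₀ := by rw [one_smul]; exact hm
      have h7 := smul_left_injective _ hw₀ h6
      have : (1 : ZMod p) = 0 := by linear_combination -h7
      exact one_ne_zero this
  have h3 := h.tr m _ hcop
  rw [hinv, hs', hs, map_smul, map_smul, LinearMap.trace_one, h1] at h3
  simp only [Nat.cast_one, smul_eq_mul, mul_one] at h3
  have h4 : (2 : ZMod p) * 2⁻¹ = 1 := mul_inv_cancel₀ (two_ne hp5)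
  rw [h3] at h4
  exact three_ne hp5 (by linear_combination h4)

theorem invol_unique [Nontrivial W] {x y : M} (hx : x ≠ 1) (hx2 : x * x = 1) (hy : y ≠ 1)
    (hy2 : y * y = 1) : y = x := by
  have h1 : σ (x * y) = 1 := by
    rw [map_mul, h.invol x hx hx2, h.invol y hy hy2]; simp
  have h2 := h.injective _ h1
  have h3 : x * y = x * x := by rw [h2, hx2]
  exact mul_left_cancel h3

variable [Nontrivial W] (hW : finrank (ZMod p) W = 2) (hp5 : 5 ≤ p)
include hW hp5

theorem not_sixteen_dvd : ¬ 16 ∣ Nat.card M := by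
  intro h16
  have h1 : 2 ^ 4 ∣ Nat.card M := by simpa using h16
  obtain ⟨Q, hQ⟩ := Sylow.exists_subgroup_card_pow_prime 2 h1
  have hQ' : Nat.card Q = 16 := by rw [hQ]; norm_num
  obtain ⟨z, hz⟩ := exists_prime_orderOf_dvd_card' (G := Q) 2 (by rw [hQ']; norm_num)
  have hz1 : z ≠ 1 := by
    intro h0; rw [h0, orderOf_one] at hz; omega
  have hz2 : z * z = 1 := by rw [← pow_two, ← hz]; exact pow_orderOf_eq_one z
  refine no_sixteen hQ' z hz1 hz2 ?_ ?_
  · intro x hx
    by_cases hx1 : x = 1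
    · exact Or.inl hx1
    · right
      apply Subtype.ext
      apply h.invol_unique (x := (z : M)) (y := (x : M))
      · exact fun h0 => hz1 (Subtype.ext h0)
      · exact congrArg Subtype.val hz2
      · exact fun h0 => hx1 (Subtype.ext h0)
      · exact congrArg Subtype.val hx
  · intro x
    by_contra hx4
    have h2 : orderOf x ∣ 2 ^ 4 := by rw [← hQ]; exact orderOf_dvd_natCard x
    obtain ⟨k, hk, hk2⟩ := (Nat.dvd_prime_pow Nat.prime_two).mp h2
    have hk3 : 3 ≤ k := by
      by_contra hlt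
      apply hx4
      rw [← orderOf_dvd_iff_pow_eq_one, hk2]
      have : (4 : ℕ) = 2 ^ 2 := by norm_num
      rw [this]
      exact pow_dvd_pow 2 (by omega)
    have h5 : orderOf (x ^ 2 ^ (k - 3)) = 8 := by
      rw [orderOf_pow, hk2, Nat.gcd_eq_right (pow_dvd_pow 2 (by omega)),
        Nat.pow_div (by omega) (by norm_num)]
      have : k - (k - 3) = 3 := by omega
      rw [this]
    apply h.no_eight hW hp5 ((x ^ 2 ^ (k - 3) : Q) : M)
    rw [Subgroup.orderOf_coe, h5]

theorem not_nine_dvd : ¬ 9 ∣ Nat.card M := by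
  classical
  intro h9
  have h1 : 3 ^ 2 ∣ Nat.card M := by simpa using h9
  obtain ⟨Q, hQ⟩ := Sylow.exists_subgroup_card_pow_prime 3 h1
  have hcomm : ∀ a b : Q, a * b = b * a :=
    (IsPGroup.isMulCommutative_of_card_eq_prime_sq (p := 3) hQ).is_comm.comm
  have hord : ∀ a : Q, a ^ 3 = 1 := by
    intro a
    have h2 : orderOf a ∣ 3 ^ 2 := by rw [← hQ]; exact orderOf_dvd_natCard a
    obtain ⟨k, hk, hk2⟩ := (Nat.dvd_prime_pow Nat.prime_three).mp h2
    have hk3 : k ≠ 2 := by
      rintro rfl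
      apply h.no_nine hW hp5 (a : M)
      rw [Subgroup.orderOf_coe, hk2]; norm_num
    rw [← orderOf_dvd_iff_pow_eq_one, hk2]
    calc 3 ^ k ∣ 3 ^ 1 := pow_dvd_pow 3 (by omega)
      _ = 3 := by norm_num
  obtain ⟨a, ha⟩ := exists_notMem_finset ({1} : Finset Q) (by rw [hQ]; simp)
  obtain ⟨b, hb⟩ := exists_notMem_finset ({1, a, a * a} : Finset Q)
    (lt_of_le_of_lt Finset.card_le_three (by rw [hQ]; norm_num))
  simp only [Finset.mem_insert, Finset.mem_singleton, not_or] at ha hb
  have ea := h.order_three (a : M) (fun h0 => ha (Subtype.ext h0))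
    (congrArg Subtype.val (hord a))
  have eb := h.order_three (b : M) (fun h0 => hb.1 (Subtype.ext h0))
    (congrArg Subtype.val (hord b))
  have hab : σ a * σ b = σ b * σ a := by
    rw [← map_mul, ← map_mul]
    exact congrArg σ (congrArg Subtype.val (hcomm a b))
  have hb3 : σ b ^ 3 = 1 := by
    rw [← map_pow]
    have : (b : M) ^ 3 = 1 := congrArg Subtype.val (hord b)
    rw [this, map_one]
  have hprod : (σ a - σ b) * (σ a - σ b ^ 2) = 0 := by
    have h2 : (σ a - σ b) * (σ a - σ b ^ 2) =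
        σ a ^ 2 - σ a * (σ b ^ 2 + σ b) + σ b ^ 3 := by
      rw [sub_mul, mul_sub, mul_sub, ← hab, pow_succ' (σ b) 2, mul_add]
      rw [pow_two (σ a)]
      abel
    have h3 : σ b ^ 2 + σ b = -1 := by
      rw [eq_neg_iff_add_eq_zero]; exact eb
    rw [h2, h3, hb3, mul_neg, mul_one, sub_neg_eq_add]
    exact ea
  obtain ⟨w₀, hw₀⟩ := exists_ne (0 : W)
  by_cases hw : (σ a - σ b ^ 2) w₀ = 0
  · -- a = b^2
    have h2 : σ a w₀ = σ (b ^ 2 : M) w₀ := by
      rw [map_pow]
      exact sub_eq_zero.mp hw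
    have h3 : σ ((b ^ 2 : M)⁻¹ * a) w₀ = w₀ := by
      rw [map_mul]
      change σ (b ^ 2 : M)⁻¹ (σ a w₀) = w₀
      rw [h2]
      change (σ (b ^ 2 : M)⁻¹ * σ (b ^ 2 : M)) w₀ = w₀
      rw [← map_mul]; simp
    have h4 := h.semi _ w₀ hw₀ h3
    rw [inv_mul_eq_one] at h4
    have h5 : b ^ 2 = a := Subtype.ext (by simpa using h4)
    apply hb.2.2
    rw [← h5]
    calc b = b ^ 3 * b := by rw [hord b]; group
      _ = b ^ 2 * b ^ 2 := by group
  · have h2 : σ a ((σ a - σ b ^ 2) w₀) = σ b ((σ a - σ b ^ 2) w₀) := by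
      have h3 := LinearMap.congr_fun hprod w₀
      change (σ a - σ b) ((σ a - σ b ^ 2) w₀) = 0 at h3
      exact sub_eq_zero.mp h3
    have h3 : σ ((b : M)⁻¹ * a) ((σ a - σ b ^ 2) w₀) = (σ a - σ b ^ 2) w₀ := by
      rw [map_mul]
      change σ (b : M)⁻¹ (σ a ((σ a - σ b ^ 2) w₀)) = _
      rw [h2]
      change (σ (b : M)⁻¹ * σ (b : M)) ((σ a - σ b ^ 2) w₀) = _
      rw [← map_mul]; simp
    have h4 := h.semi _ _ hw h3
    rw [inv_mul_eq_one] at h4
    exact hb.2.1 (Subtype.ext h4)

omit hW in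
/-- Main result on regular groups with rational traces. -/
theorem main (hsm : ∀ q : ℕ, q.Prime → q ∣ Nat.card M → q ≤ 3) :
    p = 5 ∧ Nat.card M = 24 ∧ Nat.card W = 25 ∧
      ∀ R : Sylow 3 M, normalizer (R : Set M) ≤ centralizer (R : Set M) := by
  have hfd : FiniteDimensional (ZMod p) W := Module.Finite.of_finite
  obtain ⟨a, b, hab⟩ := smooth_three (n := Nat.card M) Nat.card_pos.ne' hsm
  have hcW : Nat.card W = p ^ finrank (ZMod p) W := by
    have : Fintype W := Fintype.ofFinite W
    have := Module.card_eq_pow_finrank (K := ZMod p) (V := W)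
    rw [← Nat.card_eq_fintype_card, ← Nat.card_eq_fintype_card, Nat.card_zmod] at this
    exact this
  have hcM := h.card_add_one
  have hW3 : finrank (ZMod p) W < 3 := by
    by_contra hge
    push Not at hge
    apply pow_sub_one_ne_smooth hp.out hp5 hge a b
    rw [← hcW, ← hcM, ← hab]; simp
  have hW0 : 0 < finrank (ZMod p) W := Module.finrank_pos
  have hW1 := h.finrank_ne_one hp5
  have hW : finrank (ZMod p) W = 2 := by omega
  rw [hW] at hcW
  have ha : a ≤ 3 := by
    by_contra hlt
    apply h.not_sixteen_dvd hW hp5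
    rw [hab]
    have : (16 : ℕ) = 2 ^ 4 := by norm_num
    rw [this]
    exact Dvd.dvd.mul_right (pow_dvd_pow 2 (by omega)) _
  have hb : b ≤ 1 := by
    by_contra hlt
    apply h.not_nine_dvd hW hp5
    rw [hab]
    have : (9 : ℕ) = 3 ^ 2 := by norm_num
    rw [this]
    exact Dvd.dvd.mul_left (pow_dvd_pow 3 (by omega)) _
  have h24 : Nat.card M ∣ 24 := by
    rw [hab]
    have : (24 : ℕ) = 2 ^ 3 * 3 ^ 1 := by norm_num
    rw [this]
    exact mul_dvd_mul (pow_dvd_pow 2 ha) (pow_dvd_pow 3 hb)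
  have h25 : p ^ 2 ≤ 25 := by
    have := Nat.le_of_dvd (by norm_num) h24
    omega
  have hp5' : p = 5 := by nlinarith
  subst hp5'
  have hM : Nat.card M = 24 := by omega
  refine ⟨rfl, hM, by rw [hcW]; norm_num, ?_⟩
  obtain ⟨z, hz⟩ := exists_prime_orderOf_dvd_card' (G := M) 2 (by rw [hM]; norm_num)
  have hz1 : z ≠ 1 := by
    intro h0; rw [h0, orderOf_one] at hz; omega
  have hz2 : z * z = 1 := by rw [← pow_two, ← hz]; exact pow_orderOf_eq_one z
  refine normalizer_le_centralizer_of_24 hM z hz1 hz2 ?_ (h.no_twelve hW hp5)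
  intro x hx
  by_cases hx1 : x = 1
  · exact Or.inl hx1
  · exact Or.inr (h.invol_unique hz1 hz2 hx1 hx)

end RegRep

end Cfsg.Agent.AH
end

-- part: H535/AHWrap
section
/-!
From a module of a rational group to the regular groups (for S4162).
-/

set_option autoImplicit false
set_option linter.unusedSectionVars false

namespace Cfsg.Agent.AH

open Subgroup

theorem exists_coprime_lift {a j b : ℕ} (ha : a ≠ 0) (hb : b ≠ 0) (hj : j.Coprime a) :
    ∃ j' : ℕ, j' ≡ j [MOD a] ∧ j'.Coprime b := by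
  have : NeZero (a * b) := ⟨Nat.mul_ne_zero ha hb⟩
  obtain ⟨u, hu⟩ := ZMod.unitsMap_surjective (dvd_mul_right a b) (ZMod.unitOfCoprime j hj)
  refine ⟨(u : ZMod (a * b)).val, ?_, ?_⟩
  · rw [← ZMod.natCast_eq_natCast_iff]
    have h1 := congrArg (fun v : (ZMod a)ˣ => (v : ZMod a)) hu
    simp only [ZMod.unitsMap_def, Units.coe_map, ZMod.coe_unitOfCoprime] at h1
    rw [← h1, ZMod.natCast_val]
    rfl
  · exact Nat.Coprime.coprime_dvd_right (dvd_mul_left b a) (ZMod.val_coe_unit_coprime u)

variable {G : Type*} [Group G] [Finite G] {p : ℕ} [hp : Fact p.Prime]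
variable {V : Type*} [AddCommGroup V] [Module (ZMod p) V] [Finite V]

theorem wrap (hrat : IsRat G) (hp5 : 5 ≤ p)
    (P : Subgroup G) [P.Normal] (hPi : ¬ p ∣ P.index)
    (ρ : G →* Module.End (ZMod p) V) (hρ : ∀ x ∈ P, ρ x = 1)
    (X N : Subgroup G) (hXN : X ≤ N) (hNX : N ≤ normalizer (X : Set G))
    (hne : ∃ w : V, w ≠ 0 ∧ ∀ x ∈ X, ρ x w = w)
    (hsemi : ∀ n ∈ N, ∀ w : V, w ≠ 0 → (∀ x ∈ X, ρ x w = w) → ρ n w = w → n ∈ X)
    (htrans : ∀ w w' : V, w ≠ 0 → (∀ x ∈ X, ρ x w = w) → w' ≠ 0 → (∀ x ∈ X, ρ x w' = w') →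
      ∃ n ∈ N, ρ n w = w')
    (hsm : ∀ q : ℕ, q.Prime → q ∣ X.relIndex N → q ≤ 3) :
    p = 5 ∧ X.relIndex N = 24 ∧ Nat.card {w : V // ∀ x ∈ X, ρ x w = w} = 25 ∧
      ∀ (_ : (X.subgroupOf N).Normal) (R : Sylow 3 (N ⧸ X.subgroupOf N)),
        normalizer (R : Set (N ⧸ X.subgroupOf N)) ≤ centralizer (R : Set (N ⧸ X.subgroupOf N)) := by
  classical
  have hfd : FiniteDimensional (ZMod p) V := Module.Finite.of_finite
  have hn : (X.subgroupOf N).Normal := by
    rw [normal_subgroupOf_iff hXN]
    intro x n hx hn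
    exact (mem_normalizer_iff.mp (hNX hn) x).mp hx
  let ρ' : (G ⧸ P) →* Module.End (ZMod p) V := QuotientGroup.lift P ρ hρ
  have hρ' : ∀ x : G, ρ' (QuotientGroup.mk' P x) = ρ x := fun x => rfl
  set X' := X.map (QuotientGroup.mk' P) with hX'
  have hmem : ∀ w : V, w ∈ fixSub ρ' X' ↔ ∀ x ∈ X, ρ x w = w := by
    intro w
    rw [mem_fixSub]
    constructor
    · intro h x hx
      rw [← hρ' x]
      exact h _ (mem_map_of_mem _ hx)
    · rintro h _ ⟨x, hx, rfl⟩
      rw [hρ' x]
      exact h x hx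
  have hy : ∀ n : N, QuotientGroup.mk' P (n : G) ∈ normalizer (X' : Set (G ⧸ P)) := by
    intro n
    have h1 := hNX n.2
    rw [mem_normalizer_iff] at h1 ⊢
    intro h
    constructor
    · rintro ⟨x, hx, rfl⟩
      exact ⟨n * x * (n : G)⁻¹, (h1 x).mp hx, by simp⟩
    · rintro ⟨x, hx, hxe⟩
      refine ⟨(n : G)⁻¹ * x * n, ?_, ?_⟩
      · rw [SetLike.mem_coe, h1]
        have : (n : G) * ((n : G)⁻¹ * x * n) * (n : G)⁻¹ = x := by group
        rw [this]; exact hx
      · rw [map_mul, map_mul, hxe]; simp only [map_inv]; group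
  let σ₀ : N →* Module.End (ZMod p) (fixSub ρ' X') :=
    { toFun := fun n => actFix ρ' X' (hy n)
      map_one' := by
        ext w
        simp
      map_mul' := by
        intro a b
        ext w
        simp only [actFix_apply, Module.End.mul_apply, Subgroup.coe_mul, map_mul] }
  have hσ₀ : ∀ x ∈ X.subgroupOf N, σ₀ x = 1 := by
    intro x hx
    ext w
    exact (hmem w).mp w.2 x hx
  let σ : (N ⧸ X.subgroupOf N) →* Module.End (ZMod p) (fixSub ρ' X') :=
    QuotientGroup.lift (X.subgroupOf N) σ₀ hσ₀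
  have hσ : ∀ (n : N) (w : fixSub ρ' X'), ((σ (n : N ⧸ X.subgroupOf N) w : fixSub ρ' X') : V) =
      ρ n w := fun n w => rfl
  have hcardL : ¬ p ∣ Nat.card (G ⧸ P) := by
    rw [← index_eq_card]; exact hPi
  have hcardX' : (Nat.card X' : ZMod p) ≠ 0 := by
    intro h0
    rw [ZMod.natCast_eq_zero_iff] at h0
    exact hcardL (h0.trans (card_subgroup_dvd_card X'))
  have hLrat : IsRat (G ⧸ P) := hrat.quotient P
  have hreg : RegRep σ := by
    refine ⟨?_, ?_, ?_⟩
    · intro m w hw hmw
      obtain ⟨n, rfl⟩ := QuotientGroup.mk_surjective m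
      have h1 : ρ n (w : V) = w := by
        rw [← hσ n w, hmw]
      rw [QuotientGroup.eq_one_iff, mem_subgroupOf]
      exact hsemi n n.2 w (fun h0 => hw (Subtype.ext h0)) ((hmem w).mp w.2) h1
    · intro w w' hw hw'
      obtain ⟨n, hn, hnw⟩ := htrans w w' (fun h0 => hw (Subtype.ext h0)) ((hmem w).mp w.2)
        (fun h0 => hw' (Subtype.ext h0)) ((hmem w').mp w'.2)
      exact ⟨((⟨n, hn⟩ : N) : N ⧸ X.subgroupOf N), Subtype.ext hnw⟩
    · intro m j hj
      obtain ⟨j', hj', hj'L⟩ := exists_coprime_lift (orderOf_pos m).ne'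
        (Nat.card_pos (α := G ⧸ P)).ne' hj
      have h1 : m ^ j = m ^ j' := (pow_eq_pow_iff_modEq.mpr hj').symm
      rw [h1]
      obtain ⟨n, rfl⟩ := QuotientGroup.mk_surjective m
      exact trace_actFix_pow hLrat ρ' X' (hy n) hcardX' j' hj'L
  have hnt : Nontrivial (fixSub ρ' X') := by
    obtain ⟨w, hw, hwX⟩ := hne
    exact ⟨⟨w, (hmem w).mpr hwX⟩, 0, fun h0 => hw (congrArg Subtype.val h0)⟩
  obtain ⟨e1, e2, e3, e4⟩ := hreg.main hp5 (by
    intro q hq hqd
    apply hsm q hq
    rw [relIndex, index_eq_card]; exact hqd)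
  refine ⟨e1, ?_, ?_, fun _ R => e4 R⟩
  · rw [relIndex, index_eq_card]; exact e2
  · rw [← e3]
    refine Nat.card_congr (Equiv.subtypeEquivRight ?_)
    intro w
    exact (hmem w).symm

end Cfsg.Agent.AH
end

-- part: H535/AHLayer
section
/-!
Layers of a normal p-subgroup (for S4162).
-/

set_option autoImplicit false
set_option linter.unusedSectionVars false

namespace Cfsg.Agent.AH

open Subgroup
open scoped Pointwise

variable {G : Type*} [Group G] [Finite G] {p : ℕ} [hp : Fact p.Prime]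

/-- Coprime action: a coset `a B` fixed by the `p'`-element `g` contains an element commuting
with `g`. -/
theorem exists_commute_in_coset (B : Subgroup G) [B.Normal] (hB : IsPGroup p B) {g a : G}
    (hg : (orderOf g).Coprime p) (ha : a⁻¹ * (g * a * g⁻¹) ∈ B) :
    ∃ b ∈ B, g * (a * b) = (a * b) * g := by
  have hcop : (Nat.card (zpowers g)).Coprime (Nat.card B) := by
    rw [Nat.card_zpowers]
    obtain ⟨n, hn⟩ := IsPGroup.iff_card.mp hB
    rw [hn]
    exact Nat.Coprime.pow_right n hg
  have hBn : zpowers g ≤ normalizer (B : Set G) := by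
    rw [normalizer_eq_top]; exact le_top
  have hle : zpowers (a⁻¹ * g * a) ≤ zpowers g ⊔ B := by
    rw [zpowers_le]
    have h1 : a⁻¹ * g * a = (a⁻¹ * (g * a * g⁻¹)) * g := by group
    rw [h1]
    exact mul_mem (mem_sup_right ha) (mem_sup_left (mem_zpowers g))
  have hcard : Nat.card (zpowers (a⁻¹ * g * a)) = Nat.card (zpowers g) := by
    rw [Nat.card_zpowers, Nat.card_zpowers]
    have h1 : a⁻¹ * g * a = MulAut.conj a⁻¹ g := by simp
    rw [h1]
    exact orderOf_injective (MulAut.conj a⁻¹).toMonoidHom (MulAut.conj a⁻¹).injective g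
  obtain ⟨k, hk, hk2⟩ := Solvable.Glauberman.exists_conj_of_le_sup (zpowers g) B hBn hcop
    (Or.inl inferInstance) _ hle hcard
  refine ⟨k, hk, ?_⟩
  have h1 : k * g * k⁻¹ ∈ zpowers (a⁻¹ * g * a) := by
    rw [← hk2]
    exact ⟨g, mem_zpowers g, by simp [MulAut.conj_apply]⟩
  obtain ⟨i, hi⟩ := mem_zpowers_iff.mp h1
  have h2 : (a⁻¹ * g * a) ^ i = a⁻¹ * g ^ i * a := by
    have := map_zpow (MulAut.conj a⁻¹) g i
    simp only [MulAut.conj_apply, inv_inv] at this
    exact this.symm
  -- mod B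
  have h3 : (g ^ (i - 1) : G) ∈ B := by
    rw [← QuotientGroup.eq_one_iff]
    have e1 : ((k : G) : G ⧸ B) = 1 := (QuotientGroup.eq_one_iff k).mpr hk
    have e2 : ((a⁻¹ * (g * a * g⁻¹) : G) : G ⧸ B) = 1 := (QuotientGroup.eq_one_iff _).mpr ha
    have e3 : ((k * g * k⁻¹ : G) : G ⧸ B) = g := by
      rw [QuotientGroup.mk_mul, QuotientGroup.mk_mul, QuotientGroup.mk_inv, e1]; simp
    have e4 : ((a⁻¹ * g * a : G) : G ⧸ B) = g := by
      have : a⁻¹ * g * a = (a⁻¹ * (g * a * g⁻¹)) * g := by group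
      rw [this, QuotientGroup.mk_mul, e2, one_mul]
    have e5 := congrArg (fun x : G => (x : G ⧸ B)) hi
    rw [e3, QuotientGroup.mk_zpow, e4] at e5
    rw [QuotientGroup.mk_zpow, zpow_sub_one, e5, mul_inv_cancel]
  have h4 : (g ^ (i - 1) : G) = 1 := by
    have h5 : orderOf (g ^ (i - 1)) ∣ Nat.card B := Subgroup.orderOf_dvd_natCard B h3
    have h6 : orderOf (g ^ (i - 1)) ∣ Nat.card (zpowers g) :=
      Subgroup.orderOf_dvd_natCard _ (zpow_mem (mem_zpowers g) _)
    rw [← orderOf_eq_one_iff]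
    exact Nat.eq_one_of_dvd_coprimes hcop h6 h5
  have h5 : g ^ i = g := by
    have : g ^ i = g ^ (i - 1) * g := by rw [← zpow_add_one]; congr 1; ring
    rw [this, h4, one_mul]
  rw [h2, h5] at hi
  calc g * (a * k) = a * (a⁻¹ * g * a) * k := by group
    _ = a * (k * g * k⁻¹) * k := by rw [hi]
    _ = a * k * g := by group

/-- A normal `p`-subgroup with nontrivial fixed points of `g`: there is a chief factor `A / B` of `G`
below it with `C_B(g) = 1`, `C_A(g) ≠ 1`. -/
theorem exists_layer (P : Subgroup G) [hPn : P.Normal] (hP : IsPGroup p P) (g : G)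
    (hY : P ⊓ centralizer ({g} : Set G) ≠ ⊥) :
    ∃ B A : Subgroup G, B.Normal ∧ A.Normal ∧ B ≤ A ∧ A ≤ P ∧
      B ⊓ centralizer ({g} : Set G) = ⊥ ∧ A ⊓ centralizer ({g} : Set G) ≠ ⊥ ∧
      (∀ a ∈ A, ∀ x ∈ P, a * x * a⁻¹ * x⁻¹ ∈ B) ∧ (∀ a ∈ A, a ^ p ∈ B) := by
  classical
  obtain ⟨B, hBmax⟩ := (Set.toFinite {B : Subgroup G | B.Normal ∧ B ≤ P ∧
    B ⊓ centralizer ({g} : Set G) = ⊥}).exists_maximal
    ⟨⊥, inferInstance, bot_le, bot_inf_eq _⟩
  obtain ⟨⟨hBn, hBP, hBg⟩, hBm⟩ := hBmax
  have hBP' : B < P := by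
    refine lt_of_le_of_ne hBP ?_
    rintro rfl
    exact hY hBg
  obtain ⟨A, hAmin⟩ := (Set.toFinite {A : Subgroup G | A.Normal ∧ B < A ∧ A ≤ P}).exists_minimal
    ⟨P, hPn, hBP', le_rfl⟩
  obtain ⟨⟨hAn, hBA, hAP⟩, hAm⟩ := hAmin
  have hAg : A ⊓ centralizer ({g} : Set G) ≠ ⊥ := by
    intro h0
    exact absurd (hBm ⟨hAn, hAP, h0⟩ hBA.le) (not_le_of_gt hBA)
  let f := QuotientGroup.mk' B
  have hf : Function.Surjective f := QuotientGroup.mk'_surjective B
  have hPbn : (P.map f).Normal := hPn.map f hf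
  have hAbn : (A.map f).Normal := hAn.map f hf
  have hle : A.map f ≤ P.map f := map_mono hAP
  have hPb : IsPGroup p (P.map f) := hP.map f
  -- nontrivial central element of `P / B` in `A / B`
  have hKn : ((A.map f).subgroupOf (P.map f)).Normal := hAbn.subgroupOf _
  have hK : (A.map f).subgroupOf (P.map f) ≠ ⊥ := by
    intro h0
    rw [subgroupOf_eq_bot] at h0
    have h1 : A.map f = ⊥ := by
      rw [← le_bot_iff]
      intro x hx
      exact h0.le_bot ⟨hx, hle hx⟩
    rw [Subgroup.map_eq_bot_iff, QuotientGroup.ker_mk'] at h1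
    exact absurd h1 (not_le_of_gt hBA)
  obtain ⟨z, hzK, hzc, hzo⟩ := Transfer.PGroupNormal.exists_mem_inf_center_orderOf hPb _ hK
  have hzA : (z : G ⧸ B) ∈ A.map f := hzK
  obtain ⟨a₀, ha₀, ha₀z⟩ := hzA
  have hz1 : (z : G ⧸ B) ≠ 1 := by
    intro h0
    have : z = 1 := Subtype.ext h0
    rw [this, orderOf_one] at hzo
    exact hp.out.one_lt.ne hzo
  have hzp : (z : G ⧸ B) ^ p = 1 := by
    have : z ^ p = 1 := by rw [← hzo]; exact pow_orderOf_eq_one z
    exact_mod_cast congrArg Subtype.val this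
  -- first: centrality
  have hD : A ≤ A ⊓ (centralizer ((P.map f : Subgroup (G ⧸ B)) : Set (G ⧸ B))).comap f := by
    refine hAm ⟨?_, ?_, inf_le_left.trans hAP⟩ inf_le_left
    · have h1 : (centralizer ((P.map f : Subgroup (G ⧸ B)) : Set (G ⧸ B))).Normal := inferInstance
      have h2 := h1.comap f
      exact normal_inf_normal _ _
    · refine lt_of_le_of_ne (le_inf hBA.le ?_) ?_
      · intro b hb
        rw [mem_comap]
        have : f b = 1 := (QuotientGroup.eq_one_iff b).mpr hb
        rw [this]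
        exact one_mem _
      · intro h0
        have h1 : a₀ ∈ B := by
          rw [h0]
          refine mem_inf.mpr ⟨ha₀, ?_⟩
          rw [mem_comap, ha₀z, mem_centralizer_iff]
          intro x hx
          have := (mem_center_iff.mp hzc) ⟨x, hx⟩
          exact congrArg Subtype.val this
        apply hz1
        rw [← ha₀z]
        exact (QuotientGroup.eq_one_iff a₀).mpr h1
  have hcomm : ∀ a ∈ A, ∀ x ∈ P, a * x * a⁻¹ * x⁻¹ ∈ B := by
    intro a ha x hx
    have h1 := (mem_inf.mp (hD ha)).2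
    rw [mem_comap, mem_centralizer_iff] at h1
    have h2 := h1 (f x) (mem_map_of_mem f hx)
    rw [← QuotientGroup.eq_one_iff]
    change f (a * x * a⁻¹ * x⁻¹) = 1
    rw [map_mul, map_mul, map_mul, map_inv, map_inv, ← h2]
    group
  refine ⟨B, A, hBn, hAn, hBA.le, hAP, hBg, hAg, hcomm, ?_⟩
  -- exponent
  let E : Subgroup G :=
    { carrier := {a | a ∈ A ∧ a ^ p ∈ B}
      one_mem' := ⟨A.one_mem, by simp [B.one_mem]⟩
      mul_mem' := by
        rintro a b ⟨ha, ha'⟩ ⟨hb, hb'⟩
        refine ⟨A.mul_mem ha hb, ?_⟩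
        rw [← QuotientGroup.eq_one_iff] at ha' hb' ⊢
        have h1 : Commute (f a) (f b) := by
          have h2 := hcomm a ha b (hAP hb)
          rw [← QuotientGroup.eq_one_iff] at h2
          change f (a * b * a⁻¹ * b⁻¹) = 1 at h2
          rw [map_mul, map_mul, map_mul, map_inv, map_inv] at h2
          have h3 := mul_inv_eq_one.mp h2
          exact mul_inv_eq_iff_eq_mul.mp h3
        change f ((a * b) ^ p) = 1
        change f (a ^ p) = 1 at ha'
        change f (b ^ p) = 1 at hb'
        rw [map_pow] at ha' hb' ⊢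
        rw [map_mul, h1.mul_pow, ha', hb', one_mul]
      inv_mem' := by
        rintro a ⟨ha, ha'⟩
        refine ⟨A.inv_mem ha, ?_⟩
        change a⁻¹ ^ p ∈ B
        rw [inv_pow]
        exact B.inv_mem ha' }
  have hE : A ≤ E := by
    refine hAm ⟨⟨?_⟩, ?_, fun x hx => hAP hx.1⟩ (fun x hx => hx.1)
    · rintro a ⟨ha, ha'⟩ x
      refine ⟨hAn.conj_mem a ha x, ?_⟩
      rw [conj_pow]
      exact hBn.conj_mem _ ha' x
    · refine lt_of_le_of_ne (fun b hb => ⟨hBA.le hb, B.pow_mem hb p⟩) ?_
      intro h0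
      have h1 : a₀ ∈ B := by
        rw [h0]
        refine ⟨ha₀, ?_⟩
        rw [← QuotientGroup.eq_one_iff]
        change f (a₀ ^ p) = 1
        rw [map_pow, ha₀z, hzp]
      apply hz1
      rw [← ha₀z]
      exact (QuotientGroup.eq_one_iff a₀).mpr h1
  intro a ha
  exact (hE ha).2

end Cfsg.Agent.AH
end

-- part: H535/AHLemmaR
section
/-!
Lemma R (for S4162): regular sections in groups with distinct class sizes.
-/

set_option autoImplicit false
set_option linter.unusedSectionVars false

namespace Cfsg.Agent.AH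

open Subgroup

variable {G : Type*} [Group G] [Finite G] {p : ℕ} [hp : Fact p.Prime]

theorem exists_rep_aux {Q V : Type*} [Group Q] [AddCommGroup V] [Module (ZMod p) V]
    (act : Q → V →+ V) (h1 : ∀ w, act 1 w = w) (hmul : ∀ x y w, act (x * y) w = act x (act y w)) :
    ∃ ρ : Q →* Module.End (ZMod p) V, ∀ x w, ρ x w = act x w := by
  let F : Q → Module.End (ZMod p) V := fun x => AddMonoidHom.toZModLinearMap p (act x)
  have hF : ∀ (x : Q) (w : V), F x w = act x w := fun x w => rfl
  refine ⟨⟨⟨F, ?_⟩, ?_⟩, fun x w => rfl⟩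
  · apply LinearMap.ext
    intro w
    rw [hF, h1]
    rfl
  · intro x y
    apply LinearMap.ext
    intro w
    change act (x * y) w = act x (act y w)
    exact hmul x y w

/-- The conjugation action on a normal elementary abelian subgroup, as a linear representation. -/
theorem exists_rep.{u} {Q : Type u} [Group Q] [Finite Q] (T : Subgroup Q) [T.Normal]
    (hc : ∀ a ∈ T, ∀ b ∈ T, a * b = b * a) (hT : ∀ a ∈ T, a ^ p = 1) :
    ∃ (V : Type u) (_ : AddCommGroup V) (_ : Module (ZMod p) V) (_ : Finite V) (φ : V ≃ T)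
      (ρ : Q →* Module.End (ZMod p) V), (∀ w : V, w = 0 ↔ (φ w : Q) = 1) ∧
      ∀ (x : Q) (w : V), ((φ (ρ x w) : T) : Q) = x * (φ w : Q) * x⁻¹ := by
  let i1 : CommGroup T := { (inferInstance : Group T) with
    mul_comm := fun a b => Subtype.ext (hc a a.2 b b.2) }
  let i0 : AddCommGroup (Additive T) := inferInstance
  let i2 : Module (ZMod p) (Additive T) := AddCommGroup.zmodModule (n := p) (by
    intro w
    have : (w.toMul) ^ p = 1 := Subtype.ext (hT _ w.toMul.2)
    exact this)
  obtain ⟨ρ, hρ⟩ := exists_rep_aux (p := p) (V := Additive T)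
    (fun x : Q => MonoidHom.toAdditive (MulAut.conjNormal x : MulAut T).toMonoidHom)
    (by
      intro w
      have h1 : (MonoidHom.toAdditive (MulAut.conjNormal (1 : Q) : MulAut T).toMonoidHom) w =
            Additive.ofMul ((MulAut.conjNormal (1 : Q) : MulAut T) w.toMul) := rfl
      rw [h1, map_one, MulAut.one_apply]
      rfl)
    (by
      intro x y w
      have h1 : ∀ (z : Q) (w' : Additive T),
        (MonoidHom.toAdditive (MulAut.conjNormal z : MulAut T).toMonoidHom) w' =
            Additive.ofMul ((MulAut.conjNormal z : MulAut T) w'.toMul) := fun _ _ => rfl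
      rw [h1, map_mul, MulAut.mul_apply]
      rfl)
  refine ⟨Additive T, inferInstance, i2, inferInstanceAs (Finite T), Additive.toMul, ρ, ?_, ?_⟩
  · intro w
    constructor
    · rintro rfl
      rfl
    · intro h
      exact Additive.toMul.injective (Subtype.ext h)
  · intro x w
    rw [hρ]
    rfl

/-- Uniform exponent extracting the `p'`-part. -/
theorem exists_exponent (P : Subgroup G) (hP : IsPGroup p P) {g : G}
    (hg : (orderOf g).Coprime p) :
    ∃ k : ℕ, ∀ v ∈ P, g * v = v * g → (g * v) ^ k = g := by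
  have hcop : (orderOf g).Coprime (Nat.card P) := by
    obtain ⟨n, hn⟩ := IsPGroup.iff_card.mp hP
    rw [hn]
    exact Nat.Coprime.pow_right n hg
  obtain ⟨k, hk1, hk2⟩ := Nat.chineseRemainder hcop 1 0
  refine ⟨k, fun v hv hgv => ?_⟩
  have h1 : (g * v) ^ k = g ^ k * v ^ k := (show Commute g v from hgv).mul_pow k
  have h2 : g ^ k = g := by
    conv_rhs => rw [← pow_one g]
    exact pow_eq_pow_iff_modEq.mpr hk1
  have h3 : v ^ k = 1 := by
    rw [← orderOf_dvd_iff_pow_eq_one]
    exact (Subgroup.orderOf_dvd_natCard P hv).trans ((Nat.modEq_zero_iff_dvd).mp hk2)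
  rw [h1, h2, h3, mul_one]

theorem centralizer_mul_eq {g v : G} {k : ℕ} (hk : (g * v) ^ k = g) :
    centralizer ({g * v} : Set G) = centralizer ({g} : Set G) ⊓ centralizer ({v} : Set G) := by
  apply le_antisymm
  · intro z hz
    rw [mem_centralizer_singleton_iff] at hz
    have h1 : z * g = g * z := by
      have h2 : Commute z ((g * v) ^ k) := Commute.pow_right (show Commute z (g * v) from hz) k
      rw [hk] at h2
      exact h2
    rw [mem_inf, mem_centralizer_singleton_iff, mem_centralizer_singleton_iff]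
    refine ⟨h1, ?_⟩
    have h2 : g * (z * v) = g * (v * z) := by
      calc g * (z * v) = z * g * v := by rw [h1]; group
        _ = z * (g * v) := by group
        _ = g * (v * z) := by rw [hz]; group
    exact mul_left_cancel h2
  · intro z hz
    rw [mem_inf, mem_centralizer_singleton_iff, mem_centralizer_singleton_iff] at hz
    rw [mem_centralizer_singleton_iff]
    calc z * (g * v) = z * g * v := by group
      _ = g * (z * v) := by rw [hz.1]; group
      _ = g * v * z := by rw [hz.2]; group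

/-- A prime divisor of `|N : X|` gives an element of prime power order in `N` outside `X`. -/
theorem exists_pElement_notMem {q : ℕ} [hq : Fact q.Prime] {X N : Subgroup G}
    (h : q ∣ X.relIndex N) : ∃ n ∈ N, n ∉ X ∧ ∃ Q : Subgroup G, IsPGroup q Q ∧ n ∈ Q := by
  by_contra hcon
  push Not at hcon
  obtain ⟨Q₀⟩ : Nonempty (Sylow q N) := inferInstance
  have h1 : (Q₀ : Subgroup N) ≤ X.subgroupOf N := by
    intro n hn
    rw [mem_subgroupOf]
    by_contra hnX
    refine hcon n n.2 hnX ((Q₀ : Subgroup N).map N.subtype) (Q₀.isPGroup'.map _) ?_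
    exact ⟨n, hn, rfl⟩
  have h2 : (X.subgroupOf N).index ∣ (Q₀ : Subgroup N).index := index_dvd_of_le h1
  exact Q₀.not_dvd_index (h.trans h2)

/-- **Lemma R**. -/
theorem lemmaR (hAH : IsAH G) (hp5 : 5 ≤ p) (P : Sylow p G) [hPn : (P : Subgroup G).Normal]
    (hsyl : ∀ (q : ℕ) [Fact q.Prime], 5 ≤ q → ∀ Q : Sylow q G, (Q : Subgroup G).Normal)
    (g : G) (hg : (orderOf g).Coprime p)
    (hY : (P : Subgroup G) ⊓ centralizer ({g} : Set G) ≠ ⊥) :
    p = 5 ∧ ∃ U X N : Subgroup G, N = centralizer ({g} : Set G) ⊓ normalizer (X : Set G) ∧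
      Nat.card U = 25 ∧
      U ≤ (P : Subgroup G) ⊓ centralizer ({g} : Set G) ∧
      (∀ u ∈ U, ∀ y ∈ (P : Subgroup G) ⊓ centralizer ({g} : Set G), u * y = y * u) ∧
      (∀ u ∈ U, u ≠ 1 → centralizer ({g * u} : Set G) = X) ∧
      X ≤ N ∧ X.relIndex N = 24 ∧
      ∀ (_ : (X.subgroupOf N).Normal) (R : Sylow 3 (N ⧸ X.subgroupOf N)),
        normalizer (R : Set (N ⧸ X.subgroupOf N)) ≤ centralizer (R : Set (N ⧸ X.subgroupOf N)) := by
  classical
  have hP : IsPGroup p (P : Subgroup G) := P.isPGroup'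
  obtain ⟨B, A, hBn, hAn, hBA, hAP, hBg, hAg, hcomm, hexp⟩ :=
    exists_layer (P : Subgroup G) hP g hY
  have hBP : IsPGroup p B := hP.to_le (hBA.trans hAP)
  obtain ⟨k, hk⟩ := exists_exponent (P : Subgroup G) hP hg
  -- elements of `B` commuting with `g` are trivial
  have hB1 : ∀ b ∈ B, b * g = g * b → b = 1 := by
    intro b hb hbg
    have : b ∈ B ⊓ centralizer ({g} : Set G) :=
      ⟨hb, mem_centralizer_singleton_iff.mpr hbg⟩
    rw [hBg] at this
    exact mem_bot.mp this
  -- the choice of v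
  obtain ⟨v, ⟨hvA, hvg, hv1⟩, hvmax⟩ := Set.exists_max_image
    {v : G | v ∈ A ∧ v * g = g * v ∧ v ≠ 1} (fun v => cent (g * v)) (Set.toFinite _) (by
      by_contra hcon
      apply hAg
      rw [eq_bot_iff]
      intro a ha
      rw [mem_inf, mem_centralizer_singleton_iff] at ha
      by_contra ha1
      exact hcon ⟨a, ha.1, ha.2, fun h => ha1 (mem_bot.mpr h)⟩)
  set X := centralizer ({g * v} : Set G) with hX
  have hvk := hk v (hAP hvA) hvg.symm
  have hXe : X = centralizer ({g} : Set G) ⊓ centralizer ({v} : Set G) := centralizer_mul_eq hvk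
  have hXg : ∀ x ∈ X, x * g = g * x := by
    intro x hx
    rw [hXe, mem_inf, mem_centralizer_singleton_iff] at hx
    exact hx.1
  have hXv : ∀ x ∈ X, x * v = v * x := by
    intro x hx
    rw [hXe, mem_inf, mem_centralizer_singleton_iff, mem_centralizer_singleton_iff] at hx
    exact hx.2
  have hmemX : ∀ x, x * g = g * x → x * v = v * x → x ∈ X := by
    intro x h1 h2
    rw [hXe, mem_inf, mem_centralizer_singleton_iff, mem_centralizer_singleton_iff]
    exact ⟨h1, h2⟩
  have hgX : g ∈ X := hmemX g rfl hvg.symm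
  set N := centralizer ({g} : Set G) ⊓ normalizer (X : Set G) with hN
  have hXN : X ≤ N := by
    intro x hx
    exact ⟨mem_centralizer_singleton_iff.mpr (hXg x hx), le_normalizer hx⟩
  -- F2
  have hF2 : ∀ u ∈ A, u ≠ 1 → (∀ x ∈ X, x * u = u * x) →
      centralizer ({g * u} : Set G) = X ∧ ∃ n ∈ N, n * v * n⁻¹ = u := by
    intro u hu hu1 hux
    have hug := (hux g hgX).symm
    have huk := hk u (hAP hu) hug.symm
    have hle : X ≤ centralizer ({g * u} : Set G) := by
      rw [centralizer_mul_eq huk]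
      intro x hx
      exact ⟨mem_centralizer_singleton_iff.mpr (hXg x hx),
        mem_centralizer_singleton_iff.mpr (hux x hx)⟩
    have hcard : Nat.card (centralizer ({g * u} : Set G)) ≤ Nat.card X :=
      hvmax u ⟨hu, hug, hu1⟩
    have heq : X = centralizer ({g * u} : Set G) := eq_of_le_of_card_ge hle hcard
    refine ⟨heq.symm, ?_⟩
    have hcent : cent (g * v) = cent (g * u) := by
      unfold cent
      rw [← heq]
    obtain ⟨n, hn⟩ := isConj_iff.mp (isConj_of_cent_eq hAH hcent)
    have hng : n * g * n⁻¹ = g := by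
      have h1 : (n * (g * v) * n⁻¹) ^ k = n * (g * v) ^ k * n⁻¹ := conj_pow
      rw [hn, huk, hvk] at h1
      exact h1.symm
    have hnv : n * v * n⁻¹ = u := by
      have h1 : n * (g * v) * n⁻¹ = (n * g * n⁻¹) * (n * v * n⁻¹) := by group
      rw [h1, hng] at hn
      exact mul_left_cancel hn
    refine ⟨n, mem_inf.mpr ⟨mem_centralizer_singleton_iff.mpr (mul_inv_eq_iff_eq_mul.mp hng), ?_⟩,
      hnv⟩
    rw [mem_normalizer_iff]
    intro h
    have h1 : n * h * n⁻¹ ∈ X ↔ n * h * n⁻¹ ∈ centralizer ({g * u} : Set G) := by rw [← heq]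
    rw [h1, hX, mem_centralizer_singleton_iff,
      mem_centralizer_singleton_iff, ← hn]
    constructor
    · intro h2
      calc n * h * n⁻¹ * (n * (g * v) * n⁻¹) = n * (h * (g * v)) * n⁻¹ := by group
        _ = n * (g * v * h) * n⁻¹ := by rw [h2]
        _ = n * (g * v) * n⁻¹ * (n * h * n⁻¹) := by group
    · intro h2
      have h3 : n * (h * (g * v)) * n⁻¹ = n * (g * v * h) * n⁻¹ := by
        calc n * (h * (g * v)) * n⁻¹ = n * h * n⁻¹ * (n * (g * v) * n⁻¹) := by group
          _ = n * (g * v) * n⁻¹ * (n * h * n⁻¹) := h2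
          _ = n * (g * v * h) * n⁻¹ := by group
      exact mul_left_cancel (mul_right_cancel h3)
  -- the module
  let f := QuotientGroup.mk' B
  have hf : Function.Surjective f := QuotientGroup.mk'_surjective B
  have hf1 : ∀ x : G, f x = 1 ↔ x ∈ B := fun x => QuotientGroup.eq_one_iff x
  have hTn : (A.map f).Normal := hAn.map f hf
  have hTc : ∀ a ∈ A.map f, ∀ b ∈ A.map f, a * b = b * a := by
    rintro _ ⟨a, ha, rfl⟩ _ ⟨b, hb, rfl⟩
    have h1 := (hf1 _).mpr (hcomm a ha b (hAP hb))
    rw [map_mul, map_mul, map_mul, map_inv, map_inv] at h1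
    exact mul_inv_eq_iff_eq_mul.mp (mul_inv_eq_one.mp h1)
  have hTp : ∀ a ∈ A.map f, a ^ p = 1 := by
    rintro _ ⟨a, ha, rfl⟩
    rw [← map_pow]
    exact (hf1 _).mpr (hexp a ha)
  obtain ⟨V, i1, i2, i3, φ, ρ, hρ0, hρ⟩ := exists_rep (p := p) (A.map f) hTc hTp
  -- fixed vectors
  have hfix : ∀ (x : G) (w : V), (ρ.comp f) x w = w ↔
      f x * (φ w : G ⧸ B) * (f x)⁻¹ = φ w := by
    intro x w
    rw [← hρ (f x) w]
    constructor
    · intro h
      rw [MonoidHom.comp_apply] at h
      rw [h]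
    · intro h
      exact φ.injective (Subtype.ext h)
  -- lifting fixed vectors
  have hlift : ∀ w : V, (∀ x ∈ X, (ρ.comp f) x w = w) →
      ∃ u ∈ A, f u = (φ w : G ⧸ B) ∧ ∀ x ∈ X, x * u = u * x := by
    intro w hw
    obtain ⟨a, ha, haw⟩ := (φ w).2
    have h1 := (hfix g w).mp (hw g hgX)
    have h2 : a⁻¹ * (g * a * g⁻¹) ∈ B := by
      rw [← hf1, map_mul, map_mul, map_mul, map_inv, map_inv, haw, h1]
      group
    obtain ⟨b, hb, hgb⟩ := exists_commute_in_coset B hBP hg h2
    have hfu : f (a * b) = (φ w : G ⧸ B) := by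
      rw [map_mul, (hf1 b).mpr hb, mul_one, haw]
    refine ⟨a * b, A.mul_mem ha (hBA hb), hfu, ?_⟩
    intro x hx
    have h3 := (hfix x w).mp (hw x hx)
    have h4 : (a * b)⁻¹ * (x * (a * b) * x⁻¹) ∈ B := by
      have e : f ((a * b)⁻¹ * (x * (a * b) * x⁻¹)) =
          (f (a * b))⁻¹ * (f x * f (a * b) * (f x)⁻¹) := by simp only [map_mul, map_inv]
      rw [← hf1, e, hfu, h3]
      group
    have h5 := hB1 _ h4 (by
      have e1 : Commute x g := hXg x hx
      have e2 : Commute (a * b) g := hgb.symm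
      exact (e2.inv_left.mul_left ((e1.mul_left e2).mul_left e1.inv_left)))
    rw [inv_mul_eq_one] at h5
    exact (mul_inv_eq_iff_eq_mul.mp h5.symm)
  have hinj : ∀ a ∈ A, a * g = g * a → f a = 1 → a = 1 := by
    intro a _ hag hfa
    exact hB1 a ((hf1 a).mp hfa) hag
  have hXNn : N ≤ normalizer (X : Set G) := inf_le_right
  have hNg : ∀ n ∈ N, n * g = g * n := fun n hn => mem_centralizer_singleton_iff.mp hn.1
  have hXN' : ∀ n ∈ N, n * v = v * n → n ∈ X := fun n hn h => hmemX n (hNg n hn) h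
  obtain ⟨h5, h24, h25, hR⟩ := wrap (V := V) hAH.isRat hp5 (P : Subgroup G)
    P.not_dvd_index (ρ.comp f) (by
      -- P acts trivially
      intro x hx
      apply LinearMap.ext
      intro w
      change (ρ.comp f) x w = w
      rw [hfix]
      obtain ⟨a, ha, haw⟩ := (φ w).2
      have h1 := (hf1 _).mpr (hcomm a ha x hx)
      rw [map_mul, map_mul, map_mul, map_inv, map_inv] at h1
      rw [← haw, mul_inv_eq_iff_eq_mul]
      exact (mul_inv_eq_iff_eq_mul.mp (mul_inv_eq_one.mp h1)).symm)
    X N hXN hXNn (by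
      -- nonzero fixed vector
      refine ⟨φ.symm ⟨f v, mem_map_of_mem f hvA⟩, ?_, ?_⟩
      · intro h0
        rw [hρ0, Equiv.apply_symm_apply] at h0
        exact hv1 (hinj v hvA hvg h0)
      · intro x hx
        rw [hfix, Equiv.apply_symm_apply]
        rw [← map_mul, hXv x hx, map_mul, mul_inv_cancel_right])
    (by
      -- semiregularity
      intro n hn w hw hwX hnw
      obtain ⟨u, hu, huw, hux⟩ := hlift w hwX
      have hu1 : u ≠ 1 := by
        rintro rfl
        apply hw
        rw [hρ0, ← huw, map_one]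
      obtain ⟨hcu, -⟩ := hF2 u hu hu1 hux
      have hug := (hux g hgX).symm
      have huk := hk u (hAP hu) hug.symm
      have h1 := (hfix n w).mp hnw
      have h2 : u⁻¹ * (n * u * n⁻¹) ∈ B := by
        rw [← hf1, map_mul, map_inv, map_mul, map_mul, map_inv, huw, h1]
        group
      have h3 := hB1 _ h2 (by
        have e1 : Commute n g := hNg n hn
        have e2 : Commute u g := hug
        exact (e2.inv_left.mul_left ((e1.mul_left e2).mul_left e1.inv_left)))
      rw [inv_mul_eq_one] at h3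
      have h4 : n * u = u * n := mul_inv_eq_iff_eq_mul.mp h3.symm
      rw [← hcu, centralizer_mul_eq huk, mem_inf, mem_centralizer_singleton_iff,
        mem_centralizer_singleton_iff]
      exact ⟨hNg n hn, h4⟩)
    (by
      -- transitivity
      have key : ∀ w : V, w ≠ 0 → (∀ x ∈ X, (ρ.comp f) x w = w) →
          ∃ n ∈ N, f (n * v * n⁻¹) = (φ w : G ⧸ B) := by
        intro w hw hwX
        obtain ⟨u, hu, huw, hux⟩ := hlift w hwX
        have hu1 : u ≠ 1 := by
          rintro rfl
          apply hw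
          rw [hρ0, ← huw, map_one]
        obtain ⟨-, n, hn, hnv⟩ := hF2 u hu hu1 hux
        exact ⟨n, hn, by rw [hnv, huw]⟩
      intro w w' hw hwX hw' hwX'
      obtain ⟨n, hn, hnw⟩ := key w hw hwX
      obtain ⟨n', hn', hnw'⟩ := key w' hw' hwX'
      refine ⟨n' * n⁻¹, N.mul_mem hn' (N.inv_mem hn), ?_⟩
      apply φ.injective
      apply Subtype.ext
      rw [MonoidHom.comp_apply, hρ, ← hnw, ← hnw']
      simp only [map_mul, map_inv]
      group)
    (by
      -- primes
      intro q hq hqd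
      by_contra hq3
      have hq5 : 5 ≤ q := by
        by_contra hlt
        have : q = 4 := by omega
        subst this
        exact absurd hq (by decide)
      have hqf : Fact q.Prime := ⟨hq⟩
      obtain ⟨n, hn, hnX, Q₁, hQ₁, hnQ₁⟩ := exists_pElement_notMem hqd
      obtain ⟨Q, hQ⟩ := hQ₁.exists_le_sylow
      have hQn : (Q : Subgroup G).Normal := hsyl q hq5 Q
      have hnQ : n ∈ (Q : Subgroup G) := hQ hnQ₁
      apply hnX
      refine hXN' n hn ?_
      by_cases hqp : q = p
      · subst hqp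
        have hnP : n ∈ (P : Subgroup G) := by
          have : Subsingleton (Sylow q G) := by
            have := Sylow.unique_of_normal P hPn
            infer_instance
          rw [Subsingleton.elim P Q]
          exact hnQ
        have h1 := hB1 _ (hcomm v hvA n hnP) (by
          have e1 : Commute n g := hNg n hn
          have e2 : Commute v g := hvg
          exact ((e2.mul_left e1).mul_left e2.inv_left).mul_left e1.inv_left)
        exact (mul_inv_eq_iff_eq_mul.mp (mul_inv_eq_one.mp h1)).symm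
      · have hd : Disjoint (Q : Subgroup G) (P : Subgroup G) :=
          IsPGroup.disjoint_of_ne q p hqp _ _ Q.isPGroup' P.isPGroup'
        exact Subgroup.commute_of_normal_of_disjoint _ _ hQn hPn hd n v hnQ (hAP hvA))
  refine ⟨h5, A ⊓ centralizer (X : Set G), X, N, rfl, ?_, ?_, ?_, ?_, hXN, h24, hR⟩
  · rw [← h25]
    refine Nat.card_eq_of_bijective (fun u => ⟨φ.symm ⟨f u, mem_map_of_mem f u.2.1⟩, ?_⟩)
      ⟨?_, ?_⟩
    · intro x hx
      rw [hfix, Equiv.apply_symm_apply]
      have h1 := mem_centralizer_iff.mp u.2.2 x hx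
      rw [← map_mul, h1, map_mul, mul_inv_cancel_right]
    · intro a b hab
      have h1 : f a = f b := by
        have := congrArg (fun z => ((φ (Subtype.val z) : A.map f) : G ⧸ B)) hab
        simpa only [Equiv.apply_symm_apply] using this
      have h2 : ((a : G)⁻¹ * b) = 1 := by
        refine hinj _ (A.mul_mem (A.inv_mem a.2.1) b.2.1) ?_ ?_
        · have e1 := (mem_centralizer_iff.mp a.2.2 g hgX)
          have e2 := (mem_centralizer_iff.mp b.2.2 g hgX)
          have e1' : Commute (a : G) g := e1.symm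
          have e2' : Commute (b : G) g := e2.symm
          exact e1'.inv_left.mul_left e2'
        · rw [map_mul, map_inv, h1, inv_mul_cancel]
      exact Subtype.ext (inv_mul_eq_one.mp h2)
    · rintro ⟨w, hw⟩
      obtain ⟨u, hu, huw, hux⟩ := hlift w hw
      refine ⟨⟨u, hu, mem_centralizer_iff.mpr hux⟩, ?_⟩
      apply Subtype.ext
      apply φ.injective
      apply Subtype.ext
      rw [Equiv.apply_symm_apply]
      exact huw
  · intro u hu
    exact ⟨hAP hu.1, mem_centralizer_singleton_iff.mpr (mem_centralizer_iff.mp hu.2 g hgX).symm⟩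
  · intro u hu y hy
    have h1 := hB1 _ (hcomm u hu.1 y hy.1) (by
      have e1 : Commute y g := mem_centralizer_singleton_iff.mp hy.2
      have e2 : Commute u g := (mem_centralizer_iff.mp hu.2 g hgX).symm
      exact ((e2.mul_left e1).mul_left e2.inv_left).mul_left e1.inv_left)
    exact mul_inv_eq_iff_eq_mul.mp (mul_inv_eq_one.mp h1)
  · intro u hu hu1
    exact (hF2 u hu.1 hu1 (mem_centralizer_iff.mp hu.2)).1

end Cfsg.Agent.AH
end
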